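/-
Subgroups of a unitary group containing the transvection groups of some isotropic points:
moves of points, the Eichler transformation of two orthogonal points and the closure lemma for `q ≥ 3`.
-/
import Mathlib
import Cfsg.Agent.Lib.PSUTwo.Basic

set_option autoImplicit false
set_option linter.unusedSimpArgs false
set_option linter.unusedSectionVars false
set_option linter.style.haveILetI false
set_option linter.unusedVariables false

namespace Cfsg.Agent.Lib.SUReg.Abs

open Module Cfsg.Agent.Lib.Classical.HermBasic Cfsg.Agent.Lib.Classical.HermElem Cfsg.Agent.Lib.Classical.HermGen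
open Cfsg.Agent.Lib.PSUTwo.Basic

universe u v

variable {F : Type u} [Field F] {V : Type v} [AddCommGroup V] [Module F V]
variable {σ : F →+* F} {h : V → V → F} {G : Subgroup (V ≃ₗ[F] V)}

theorem ZZ.conj' (hG : G ≤ uGroup h) {t : V ≃ₗ[F] V} (ht : t ∈ G) {c : V} (H : ZZ σ h G c) : ZZ σ h G (t c) := by
  intro κ g Hg
  have h1 := Hg.conj (t := t⁻¹) ((uGroup h).inv_mem (hG ht))
  rw [inv_apply_self, map_zero] at h1
  exact mul_mem_of_conj ht (H _ _ h1)

section calculus

variable [FiniteDimensional F V] (S : HForm σ h) (hσ : Invol σ)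

include S hσ

theorem ZZ.smul' {l : F} (hl : l ≠ 0) {c : V} (H : ZZ σ h G c) : ZZ σ h G (l • c) := by
  intro κ g Hg
  have := Hg.smul_center S hσ hl
  rw [smul_zero] at this
  exact H _ _ this

omit hσ in
/-- The transvection with the given parameter. -/
theorem exists_tv {y : V} (hy : h y y = 0) {c : F} (hc : c + σ c = 0) : ∃ g, EichAt σ h y 0 c g :=
  exists_eichAt S hy (S.zero_left y) (by rw [S.zero_left, hc]; ring)

omit hσ in
theorem tv_apply {y : V} {c : F} {g : V ≃ₗ[F] V} (H : EichAt σ h y 0 c g) (x : V) :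
    g x = x + (c * h x y) • y := by
  rw [H.apply]
  simp [S.zero_right]

omit hσ in
/-- Moving a point by a transvection. -/
theorem zz_move (hG : G ≤ uGroup h) {x y : V} (hy : h y y = 0) (Hx : ZZ σ h G x) (Hy : ZZ σ h G y) {c : F}
    (hc : c + σ c = 0) : ZZ σ h G (x + (c * h x y) • y) := by
  obtain ⟨g, Hg⟩ := exists_tv S hy hc
  have := ZZ.conj' hG (Hy _ _ Hg) Hx
  rwa [tv_apply S Hg] at this

/-- The Eichler transformation of two orthogonal points whose sum is a point. -/
theorem pp_of_zz {x p : V} (hx : h x x = 0) (hp : h p p = 0) (hpx : h p x = 0) (Hx : ZZ σ h G x) (Hp : ZZ σ h G p)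
    (Hs : ZZ σ h G (p + x)) {c : F} (hc : c + σ c = 0) : PP σ h G x (c • p) := by
  have hxp : h x p = 0 := S.zero_symm hpx
  have hs : h (p + x) (p + x) = 0 := by
    simp only [S.add_left, S.add_right, hx, hp, hpx, hxp]
    ring
  have hn : -c + σ (-c) = 0 := by
    rw [map_neg]
    linear_combination -hc
  obtain ⟨T₁, H₁⟩ := exists_tv S hs hc
  obtain ⟨T₂, H₂⟩ := exists_tv S hx hn
  obtain ⟨T₃, H₃⟩ := exists_tv S hp hn
  refine ⟨0, T₁ * T₂ * T₃, G.mul_mem (G.mul_mem (Hs _ _ H₁) (Hx _ _ H₂)) (Hp _ _ H₃), hx, ?_, ?_, ?_⟩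
  · rw [S.smul_left, hpx, mul_zero]
  · simp only [S.smul_left, S.smul_right, hp]
    simp
  · intro v
    show T₁ (T₂ (T₃ v)) = _
    have hsc : σ c = -c := by linear_combination hc
    rw [tv_apply S H₃, tv_apply S H₂, tv_apply S H₁]
    simp only [S.add_left, S.add_right, S.smul_left, S.smul_right, hx, hp, hpx, hxp, hsc]
    ring_nf
    module

end calculus

section scale

variable [Fintype F] [FiniteDimensional F V] (S : HForm σ h) (hσ : Invol σ)

include S hσ

/-- The transvections of a centre from one transvection and a scaling element. -/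
theorem zz_of_scale (hG : G ≤ uGroup h) {e : V} (he : h e e = 0) {d : F} (hd0 : d ≠ 0) {T : V ≃ₗ[F] V}
    (HT : EichAt σ h e 0 d T) (hT : T ∈ G) {s : V ≃ₗ[F] V} (hs : s ∈ G) {l τ : F} (hl : l ≠ 0)
    (hse : s e = l • e) (hlτ : l * σ l = τ * τ)
    (hgen : ∀ x : F, σ x = x → x ≠ 0 → ∃ k : ℕ, x = τ ^ k) : ZZ σ h G e := by
  have hd : d + σ d = 0 := by
    have := HT.ha
    rwa [S.zero_left, add_zero] at this
  -- the parameters of transvections in `G`
  let A : AddSubgroup F :=
    { carrier := {c | ∃ g, g ∈ G ∧ EichAt σ h e 0 c g}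
      zero_mem' := by
        refine ⟨1, G.one_mem, he, S.zero_left e, by simp [S.zero_left], fun x => ?_⟩
        simp [S.zero_right]
      add_mem' := by
        rintro a b ⟨g, hg, Hg⟩ ⟨g', hg', Hg'⟩
        have := Hg.mul S Hg'
        rw [add_zero, S.zero_left, sub_zero] at this
        exact ⟨_, G.mul_mem hg hg', this⟩
      neg_mem' := by
        rintro a ⟨g, hg, Hg⟩
        have := Hg.inv S hσ
        have h1 : a + σ a = 0 := by
          have := Hg.ha
          rwa [S.zero_left, add_zero] at this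
        have h2 : σ a = -a := by linear_combination h1
        rw [neg_zero, h2] at this
        exact ⟨_, G.inv_mem hg, this⟩ }
  have hstable : ∀ c ∈ A, (τ * τ) * c ∈ A := by
    rintro c ⟨g, hg, Hg⟩
    have h1 := Hg.conj (t := s) (hG hs)
    rw [map_zero, hse] at h1
    have h2 := h1.smul_center S hσ hl
    rw [smul_zero, hlτ, mul_comm] at h2
    exact ⟨_, G.mul_mem (G.mul_mem hs hg) (G.inv_mem hs), h2⟩
  have hdA : d ∈ A := ⟨T, hT, HT⟩
  -- the multiples of `d`
  let B : AddSubgroup F :=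
    { carrier := {r | r * d ∈ A}
      zero_mem' := by
        show 0 * d ∈ A
        rw [zero_mul]
        exact A.zero_mem
      add_mem' := by
        intro a b ha hb
        show (a + b) * d ∈ A
        rw [add_mul]
        exact A.add_mem ha hb
      neg_mem' := by
        intro a ha
        show (-a) * d ∈ A
        rw [neg_mul]
        exact A.neg_mem ha }
  have hpow : ∀ k : ℕ, (τ * τ) ^ k * d ∈ A := by
    intro k
    induction k with
    | zero => simpa using hdA
    | succ k ih =>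
      have := hstable _ ih
      rwa [← mul_assoc, ← pow_succ'] at this
  have hsq : ∀ x : F, σ x = x → x * x ∈ B := by
    intro x hx
    by_cases hx0 : x = 0
    · subst hx0
      show (0 * 0) * d ∈ A
      simp [A.zero_mem]
    · obtain ⟨k, rfl⟩ := hgen x hx hx0
      show (τ ^ k * τ ^ k) * d ∈ A
      have := hpow k
      rwa [mul_pow] at this
  have hfix : ∀ x : F, σ x = x → x ∈ B := by
    intro x hx
    by_cases h2 : (2 : F) = 0
    · -- characteristic two: every element is a square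
      have hc : ringChar F = 2 := by
        have : CharP F 2 := by
          exact CharTwo.of_one_ne_zero_of_two_eq_zero one_ne_zero h2
        exact ringChar.eq F 2
      obtain ⟨y, hy⟩ := FiniteField.isSquare_of_char_two hc x
      have hy2 : σ y = y := by
        have h3 : σ y * σ y = y * y := by
          rw [← map_mul, ← hy, hx]
        have h4 : (σ y - y) * (σ y - y) = 0 := by
          linear_combination h3 + (y * y - σ y * y) * h2
        have h5 := mul_self_eq_zero.1 h4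
        linear_combination h5
      rw [hy]
      exact hsq y hy2
    · have h3 : σ (x / 2 + 1) = x / 2 + 1 := by
        simp [map_div₀, hx, map_ofNat]
      have h4 : σ (x / 2) = x / 2 := by
        simp [map_div₀, hx, map_ofNat]
      have h5 := hsq _ h3
      have h6 := hsq _ h4
      have h7 : (1 : F) ∈ B := by
        have := hsq 1 (map_one σ)
        rwa [mul_one] at this
      have h8 : x = (x / 2 + 1) * (x / 2 + 1) - x / 2 * (x / 2) - 1 := by
        field_simp
        ring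
      rw [h8]
      exact B.sub_mem (B.sub_mem h5 h6) h7
  intro κ g Hg
  have hκ : κ + σ κ = 0 := by
    have := Hg.ha
    rwa [S.zero_left, add_zero] at this
  have hsd : σ d = -d := by linear_combination hd
  have hsκ : σ κ = -κ := by linear_combination hκ
  have hfx : σ (κ / d) = κ / d := by
    rw [map_div₀, hsd, hsκ, neg_div_neg_eq]
  have hB := hfix _ hfx
  have hB' : κ / d * d ∈ A := hB
  rw [div_mul_cancel₀ _ hd0] at hB'
  obtain ⟨g', hg', Hg'⟩ := hB'
  rwa [eich_unique Hg Hg']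

end scale

section big

variable [FiniteDimensional F V] (S : HForm σ h) (hσ : Invol σ)

include S hσ

variable {e f r : V}

omit hσ in
theorem eval_e (H : IsHP h e f) (hre : h r e = 0) (A B : F) : h (A • e + B • f + r) e = B := by
  simp only [S.add_left, S.smul_left, H.ee, H.fe, hre]
  ring

omit hσ in
theorem eval_f (H : IsHP h e f) (hrf : h r f = 0) (A B : F) : h (A • e + B • f + r) f = A := by
  have hef := H.ef S
  simp only [S.add_left, S.smul_left, H.ff, hef, hrf]
  ring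

/-- Changing the coefficient of `e`. -/
theorem move_A (hG : G ≤ uGroup h) (H : IsHP h e f) (hre : h r e = 0) (He : ZZ σ h G e) {A A' B : F} (hB : B ≠ 0)
    (hn : A * σ B + σ (A * σ B) = A' * σ B + σ (A' * σ B)) (Hx : ZZ σ h G (A • e + B • f + r)) :
    ZZ σ h G (A' • e + B • f + r) := by
  have hsB : σ B ≠ 0 := by simpa using hB
  have hm : ∀ x, σ (σ x) = x := hσ.invol
  set c := (A' - A) / B with hc
  have hc1 : c + σ c = 0 := by
    rw [hc, map_div₀, map_sub]
    simp only [map_mul, hm] at hn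
    field_simp
    linear_combination -hn
  have := zz_move S hG H.ee Hx He hc1
  rw [eval_e S H hre] at this
  have e1 : A • e + B • f + r + (c * B) • e = A' • e + B • f + r := by
    have : c * B = A' - A := by rw [hc]; field_simp
    rw [this]
    module
  rwa [e1] at this

/-- Changing the coefficient of `f`. -/
theorem move_B (hG : G ≤ uGroup h) (H : IsHP h e f) (hrf : h r f = 0) (Hf : ZZ σ h G f) {A B B' : F} (hA : A ≠ 0)
    (hn : A * σ B + σ (A * σ B) = A * σ B' + σ (A * σ B')) (Hx : ZZ σ h G (A • e + B • f + r)) :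
    ZZ σ h G (A • e + B' • f + r) := by
  have hsA : σ A ≠ 0 := by simpa using hA
  have hm : ∀ x, σ (σ x) = x := hσ.invol
  set c := (B' - B) / A with hc
  have hc1 : c + σ c = 0 := by
    rw [hc, map_div₀, map_sub]
    simp only [map_mul, hm] at hn
    field_simp
    linear_combination -hn
  have := zz_move S hG H.ff Hx Hf hc1
  rw [eval_f S H hrf] at this
  have e1 : A • e + B • f + r + (c * A) • f = A • e + B' • f + r := by
    have : c * A = B' - B := by rw [hc]; field_simp
    rw [this]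
    module
  rwa [e1] at this

/-- Moving between independent values of the coefficient of `f`. -/
theorem move_indep (hG : G ≤ uGroup h) (H : IsHP h e f) (hre : h r e = 0) (hrf : h r f = 0) (He : ZZ σ h G e)
    (Hf : ZZ σ h G f) {A A' B B' a : F} (ha0 : a ≠ 0) (hsa : σ a = a) (hB : B ≠ 0) (hB' : B' ≠ 0)
    (hD : σ B * B' - B * σ B' ≠ 0)
    (hn : A * σ B + σ (A * σ B) = a) (hn' : A' * σ B' + σ (A' * σ B') = a)
    (Hx : ZZ σ h G (A • e + B • f + r)) : ZZ σ h G (A' • e + B' • f + r) := by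
  have hm : ∀ x, σ (σ x) = x := hσ.invol
  set D := σ B * B' - B * σ B' with hDdef
  have hsD : σ D = -D := by
    rw [hDdef]
    simp only [map_sub, map_mul, hm]
    ring
  set A₁ := a * (B' - B) / D with hA₁
  have hsA₁ : σ A₁ = a * (σ B - σ B') / D := by
    rw [hA₁, map_div₀, map_mul, hsa, map_sub, hsD]
    field_simp
    ring
  have n1 : A₁ * σ B + σ (A₁ * σ B) = a := by
    rw [map_mul, hm, hsA₁, hA₁]
    field_simp
    rw [hDdef]
    ring
  have n2 : A₁ * σ B' + σ (A₁ * σ B') = a := by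
    rw [map_mul, hm, hsA₁, hA₁]
    field_simp
    rw [hDdef]
    ring
  have hA₁0 : A₁ ≠ 0 := by
    intro h0
    rw [h0] at n1
    simp at n1
    exact ha0 n1.symm
  have s1 := move_A S hσ hG H hre He hB (hn.trans n1.symm) Hx
  have s2 := move_B S hσ hG H hrf Hf (B' := B') hA₁0 (n1.trans n2.symm) s1
  exact move_A S hσ hG H hre He hB' (n2.trans hn'.symm) s2

/-- Moving between arbitrary values of the coefficient of `f`. -/
theorem move_any (hG : G ≤ uGroup h) (H : IsHP h e f) (hre : h r e = 0) (hrf : h r f = 0) (He : ZZ σ h G e)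
    (Hf : ZZ σ h G f) {A A' B B' a : F} (ha0 : a ≠ 0) (hsa : σ a = a) (hB : B ≠ 0) (hB' : B' ≠ 0)
    (hn : A * σ B + σ (A * σ B) = a) (hn' : A' * σ B' + σ (A' * σ B') = a)
    (Hx : ZZ σ h G (A • e + B • f + r)) : ZZ σ h G (A' • e + B' • f + r) := by
  have hm : ∀ x, σ (σ x) = x := hσ.invol
  by_cases hD : σ B * B' - B * σ B' = 0
  · obtain ⟨ζ, hζ⟩ := hσ.ne_id
    have hsB : σ B ≠ 0 := by simpa using hB
    have hsB' : σ B' ≠ 0 := by simpa using hB'
    have hζ0 : ζ ≠ 0 := by
      rintro rfl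
      exact hζ (map_zero σ)
    have hsub : σ ζ - ζ ≠ 0 := sub_ne_zero.2 hζ
    set B₁ := ζ * B with hB₁
    have hB₁0 : B₁ ≠ 0 := mul_ne_zero hζ0 hB
    have d1 : σ B * B₁ - B * σ B₁ ≠ 0 := by
      have : σ B * B₁ - B * σ B₁ = - (B * σ B * (σ ζ - ζ)) := by
        rw [hB₁, map_mul]
        ring
      rw [this]
      exact neg_ne_zero.2 (mul_ne_zero (mul_ne_zero hB hsB) hsub)
    have d2 : σ B₁ * B' - B₁ * σ B' ≠ 0 := by
      have : σ B₁ * B' - B₁ * σ B' = (σ ζ - ζ) * (B * σ B') := by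
        rw [hB₁, map_mul]
        linear_combination σ ζ * hD
      rw [this]
      exact mul_ne_zero hsub (mul_ne_zero hB hsB')
    obtain ⟨x, hx⟩ := hσ.exists_trace a hsa
    have hsB₁ : σ B₁ ≠ 0 := by simpa using hB₁0
    have n3 : x / σ B₁ * σ B₁ + σ (x / σ B₁ * σ B₁) = a := by
      rw [div_mul_cancel₀ _ hsB₁, hx]
    have s1 := move_indep S hσ hG H hre hrf He Hf ha0 hsa hB hB₁0 d1 hn n3 Hx
    exact move_indep S hσ hG H hre hrf He Hf ha0 hsa hB₁0 hB' d2 n3 hn' s1
  · exact move_indep S hσ hG H hre hrf He Hf ha0 hsa hB hB' hD hn hn' Hx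

/-- The closure lemma for `q ≥ 3`. -/
theorem closure_big (hG : G ≤ uGroup h) {p : V} (H : IsHP h e f) (hre : h r e = 0) (hrf : h r f = 0)
    (He : ZZ σ h G e) (Hf : ZZ σ h G f) {A₀ B₀ : F} (hB₀ : B₀ ≠ 0)
    (hn0 : A₀ * σ B₀ + σ (A₀ * σ B₀) ≠ 0) (Hz : ZZ σ h G (A₀ • e + B₀ • f + r))
    (hrr : h r r + (A₀ * σ B₀ + σ (A₀ * σ B₀)) = 0)
    (hp : h p p = 0) (hpe : h p e = 0) (hpf : h p f = 0) (Hp : ZZ σ h G p) (hκ : h p r ≠ 0)
    (hq : ∀ y : F, σ y = y → ∃ t, σ t = t ∧ t ≠ 0 ∧ t ≠ y) {d : F} (hd : d ≠ 0) :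
    ZZ σ h G (p + d⁻¹ • e) := by
  have hm : ∀ x, σ (σ x) = x := hσ.invol
  have hef := H.ef S
  set κ := h p r with hκdef
  set a := A₀ * σ B₀ + σ (A₀ * σ B₀) with ha
  have hsa : σ a = a := by
    rw [ha, map_add, hm]
    ring
  have hsκ : σ κ ≠ 0 := by simpa using hκ
  have hsd : σ d ≠ 0 := by simpa using hd
  obtain ⟨t₀, ht₀, ht₀0, ht₀1⟩ := hq (-(κ * σ κ)) (by
    rw [map_neg, map_mul, hm]
    ring)
  set B' := t₀ * σ d / κ with hB'
  have hB'0 : B' ≠ 0 := div_ne_zero (mul_ne_zero ht₀0 hsd) hκ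
  have hsB' : σ B' ≠ 0 := by simpa using hB'0
  obtain ⟨x, hx⟩ := hσ.exists_trace a hsa
  set A' := x / σ B' with hA'
  have hn' : A' * σ B' + σ (A' * σ B') = a := by
    rw [hA', div_mul_cancel₀ _ hsB', hx]
  have Hy := move_any S hσ hG H hre hrf He Hf hn0 hsa hB₀ hB'0 rfl hn' Hz
  set y₁ := A' • e + B' • f + r with hy₁
  -- a non-zero element of trace zero
  obtain ⟨c₁, hc₁0, hc₁⟩ := hσ.exists_pure
  have hsc₁ : σ c₁ = -c₁ := by linear_combination hc₁
  have hy₁y₁ : h y₁ y₁ = 0 := by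
    have hfe := H.fe
    have hrf' : h f r = 0 := S.zero_symm hrf
    have hre' : h e r = 0 := S.zero_symm hre
    rw [hy₁]
    simp only [S.add_left, S.add_right, S.smul_left, S.smul_right, H.ee, H.ff, hfe, hef, hre, hrf, hrf', hre']
    rw [map_mul, hm] at hn'
    linear_combination hrr + hn'
  have hpy₁ : h p y₁ = σ 1 * κ := by
    rw [hy₁]
    simp only [S.add_right, S.smul_right, hpe, hpf, ← hκdef, map_one]
    ring
  have hκB' : κ * B' = t₀ * σ d := by
    rw [hB']
    field_simp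
  set ξ := c₁ * κ with hξ
  have hξ0 : ξ ≠ 0 := mul_ne_zero hc₁0 hκ
  -- the first move
  have P1 := zz_move S hG hy₁y₁ Hp Hy hc₁
  rw [hpy₁, map_one, one_mul, ← hξ] at P1
  -- the second centre
  have HyS : ZZ σ h G (ξ • y₁) := ZZ.smul' S hσ hξ0 Hy
  have hy₁e : h y₁ e = B' := eval_e S H hre A' B'
  set c₃ := -(d⁻¹ / (ξ * B')) with hc₃
  have hξB' : ξ * B' = c₁ * (t₀ * σ d) := by
    rw [hξ, mul_assoc, hκB']
  have hc₃1 : c₃ + σ c₃ = 0 := by
    rw [hc₃, hξB', map_neg, map_div₀, map_inv₀, map_mul, map_mul, hsc₁, ht₀, hm]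
    field_simp
    ring
  have P2 := zz_move S hG H.ee HyS He hc₃1
  have e2 : (c₃ * h (ξ • y₁) e) = - d⁻¹ := by
    rw [S.smul_left, hy₁e, hc₃]
    have : ξ * B' ≠ 0 := mul_ne_zero hξ0 hB'0
    field_simp
  rw [e2] at P2
  set y₂ := ξ • y₁ + (-d⁻¹) • e with hy₂
  -- the third move
  have hsξB' : σ ξ * σ B' = -(c₁ * (t₀ * d)) := by
    have := congrArg σ hξB'
    simp only [map_mul, hsc₁, ht₀, hm] at this
    linear_combination this
  have hy₁e' : h e y₁ = σ B' := by rw [S.conj y₁ e, hy₁e]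
  have hsdi : σ d⁻¹ * σ d = 1 := by
    rw [map_inv₀]
    exact inv_mul_cancel₀ hsd
  have hdi : d⁻¹ * d = 1 := inv_mul_cancel₀ hd
  have hy₂y₂ : h y₂ y₂ = 0 := by
    rw [hy₂]
    simp only [S.add_left, S.add_right, S.smul_left, S.smul_right, H.ee, hy₁y₁, hy₁e, hy₁e', map_neg]
    linear_combination (-σ d⁻¹) * hξB' + (-d⁻¹) * hsξB' - (c₁ * t₀) * hsdi + (c₁ * t₀) * hdi
  have hpe' : h p (d⁻¹ • e) = 0 := by rw [S.smul_right, hpe, mul_zero]
  have hval : h (p + ξ • y₁) y₂ = -(c₁ * (κ * σ κ + t₀)) := by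
    rw [hy₂]
    simp only [S.add_left, S.add_right, S.smul_left, S.smul_right, hpe, hpy₁, hy₁y₁, hy₁e, map_neg, map_one]
    have e5 : σ ξ = -(c₁ * σ κ) := by rw [hξ, map_mul, hsc₁]; ring
    rw [e5]
    linear_combination (-(c₁ * t₀)) * hsdi - σ d⁻¹ * hξB'
  have hne : κ * σ κ + t₀ ≠ 0 := by
    intro h0
    exact ht₀1 (by linear_combination h0)
  set c₂ := (c₁ * (κ * σ κ + t₀))⁻¹ with hc₂
  have hc₂1 : c₂ + σ c₂ = 0 := by
    have e6 : σ (κ * σ κ + t₀) = κ * σ κ + t₀ := by
      simp only [map_add, map_mul, hm, ht₀]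
      ring
    rw [hc₂, map_inv₀, map_mul, hsc₁, e6]
    field_simp
    ring
  have P3 := zz_move S hG hy₂y₂ P1 P2 hc₂1
  rw [hval] at P3
  have e7 : c₂ * -(c₁ * (κ * σ κ + t₀)) = -1 := by
    rw [hc₂]
    field_simp
  rw [e7] at P3
  have e8 : p + ξ • y₁ + (-1 : F) • y₂ = p + d⁻¹ • e := by
    rw [hy₂]
    module
  rwa [e8] at P3

/-- Eichler transformations of the centre along multiples of `p`, for `q ≥ 3`. -/
theorem pp_big (hG : G ≤ uGroup h) {p : V} (H : IsHP h e f) (hre : h r e = 0) (hrf : h r f = 0)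
    (He : ZZ σ h G e) (Hf : ZZ σ h G f) {A₀ B₀ : F} (hB₀ : B₀ ≠ 0)
    (hn0 : A₀ * σ B₀ + σ (A₀ * σ B₀) ≠ 0) (Hz : ZZ σ h G (A₀ • e + B₀ • f + r))
    (hrr : h r r + (A₀ * σ B₀ + σ (A₀ * σ B₀)) = 0)
    (hp : h p p = 0) (hpe : h p e = 0) (hpf : h p f = 0) (Hp : ZZ σ h G p) (hκ : h p r ≠ 0)
    (hq : ∀ y : F, σ y = y → ∃ t, σ t = t ∧ t ≠ 0 ∧ t ≠ y) (y : F) :
    PP σ h G e (y • p) := by
  by_cases hy : y = 0
  · subst hy
    rw [zero_smul]
    exact PP.zero S H.ee
  obtain ⟨c₁, hc₁0, hc₁⟩ := hσ.exists_pure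
  have hsc₁ : σ c₁ ≠ 0 := by simpa using hc₁0
  have hm : ∀ x, σ (σ x) = x := hσ.invol
  -- `σ l * c₁ = y`
  set l := σ (y / c₁) with hl
  have hl0 : l ≠ 0 := by
    rw [hl]
    simpa using ⟨hy, hc₁0⟩
  have hd : l⁻¹ ≠ 0 := inv_ne_zero hl0
  have Z := closure_big S hσ hG H hre hrf He Hf hB₀ hn0 Hz hrr hp hpe hpf Hp hκ hq hd
  rw [inv_inv] at Z
  have hx : h (l • e) (l • e) = 0 := by simp [S.smul_left, S.smul_right, H.ee]
  have hpx : h p (l • e) = 0 := by rw [S.smul_right, hpe, mul_zero]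
  have P := pp_of_zz S hσ hx hp hpx (ZZ.smul' S hσ hl0 He) Hp Z hc₁
  have P' := P.center S hσ hl0
  have e1 : σ l • c₁ • p = y • p := by
    rw [hl, hm, smul_smul]
    field_simp
  rwa [e1] at P'

end big

end Cfsg.Agent.Lib.SUReg.Abs
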