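/-
The closure certificate for `q = 2`.
-/
import Mathlib
import Cfsg.Agent.Lib.SUReg.Abs

set_option autoImplicit false
set_option linter.unusedSimpArgs false
set_option linter.unusedSectionVars false
set_option linter.style.haveILetI false
set_option linter.unusedVariables false

namespace Cfsg.Agent.Lib.SUReg.Two

open Module Cfsg.Agent.Lib.Classical.HermBasic Cfsg.Agent.Lib.Classical.HermElem Cfsg.Agent.Lib.Classical.HermGen
open Cfsg.Agent.Lib.PSUTwo.Basic Cfsg.Agent.Lib.SUReg.Abs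

universe u v

variable {F : Type u} [Field F] {V : Type v} [AddCommGroup V] [Module F V]
variable {σ : F →+* F} {h : V → V → F} {G : Subgroup (V ≃ₗ[F] V)}

/-- The Gram matrix of the four vectors. -/
structure Gram4 (σ : F →+* F) (h : V → V → F) (ω : F) (e f z p : V) : Prop where
  ee : h e e = 0
  ef : h e f = ω + 1
  ez : h e z = ω + 1
  ep : h e p = 0
  fe : h f e = ω
  ff : h f f = 0
  fz : h f z = ω
  fp : h f p = 0
  ze : h z e = ω
  zf : h z f = ω + 1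
  zz : h z z = 0
  zp : h z p = ω
  pe : h p e = 0
  pf : h p f = 0
  pz : h p z = ω + 1
  pp : h p p = 0

section main

variable [FiniteDimensional F V] (S : HForm σ h) (hσ : Invol σ)

include S

variable {ω : F} {e f z p : V}

/-- The combination of the four vectors. -/
abbrev vec4 (e f z p : V) (a₁ a₂ a₃ a₄ : F) : V := a₁ • e + a₂ • f + a₃ • z + a₄ • p

theorem gram4 (Gr : Gram4 σ h ω e f z p) (a₁ a₂ a₃ a₄ c₁ c₂ c₃ c₄ : F) :
    h (vec4 e f z p a₁ a₂ a₃ a₄) (vec4 e f z p c₁ c₂ c₃ c₄) =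
      a₁ * (σ c₂ * (ω + 1) + σ c₃ * (ω + 1)) + a₂ * (σ c₁ * ω + σ c₃ * ω) +
        a₃ * (σ c₁ * ω + σ c₂ * (ω + 1) + σ c₄ * ω) + a₄ * (σ c₃ * (ω + 1)) := by
  simp only [vec4, S.add_left, S.add_right, S.smul_left, S.smul_right, Gr.ee, Gr.ef, Gr.ez, Gr.ep, Gr.fe, Gr.ff, Gr.fz,
    Gr.fp, Gr.ze, Gr.zf, Gr.zz, Gr.zp, Gr.pe, Gr.pf, Gr.pz, Gr.pp]
  ring

/-- One move. -/
theorem step4 (hG : G ≤ uGroup h) (h2 : (2 : F) = 0) (Gr : Gram4 σ h ω e f z p)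
    {a₁ a₂ a₃ a₄ c₁ c₂ c₃ c₄ b₁ b₂ b₃ b₄ s₁ s₂ s₃ s₄ κ : F}
    (H1 : σ c₁ = s₁) (H2 : σ c₂ = s₂) (H3 : σ c₃ = s₃) (H4 : σ c₄ = s₄)
    (Hx : ZZ σ h G (vec4 e f z p a₁ a₂ a₃ a₄)) (Hy : ZZ σ h G (vec4 e f z p c₁ c₂ c₃ c₄))
    (hy : c₁ * (s₂ * (ω + 1) + s₃ * (ω + 1)) + c₂ * (s₁ * ω + s₃ * ω) +
        c₃ * (s₁ * ω + s₂ * (ω + 1) + s₄ * ω) + c₄ * (s₃ * (ω + 1)) = 0)
    (hκ : a₁ * (s₂ * (ω + 1) + s₃ * (ω + 1)) + a₂ * (s₁ * ω + s₃ * ω) +
        a₃ * (s₁ * ω + s₂ * (ω + 1) + s₄ * ω) + a₄ * (s₃ * (ω + 1)) = κ)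
    (e1 : a₁ + κ * c₁ = b₁) (e2 : a₂ + κ * c₂ = b₂) (e3 : a₃ + κ * c₃ = b₃) (e4 : a₄ + κ * c₄ = b₄) :
    ZZ σ h G (vec4 e f z p b₁ b₂ b₃ b₄) := by
  have hc : (1 : F) + σ 1 = 0 := by
    rw [map_one]
    linear_combination h2
  have hyy : h (vec4 e f z p c₁ c₂ c₃ c₄) (vec4 e f z p c₁ c₂ c₃ c₄) = 0 := by
    rw [gram4 S Gr, H1, H2, H3, H4, hy]
  have := zz_move S hG hyy Hx Hy hc
  rw [gram4 S Gr, H1, H2, H3, H4, hκ, one_mul] at this
  have e5 : vec4 e f z p a₁ a₂ a₃ a₄ + κ • vec4 e f z p c₁ c₂ c₃ c₄ = vec4 e f z p b₁ b₂ b₃ b₄ := by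
    rw [← e1, ← e2, ← e3, ← e4]
    simp only [vec4]
    module
  rwa [e5] at this

include hσ

/-- The certificate. -/
theorem pp_two (hG : G ≤ uGroup h) (h2 : (2 : F) = 0) (hω : ω * ω = ω + 1) (hsω : σ ω = ω + 1)
    (hall : ∀ y : F, y = 0 ∨ y = 1 ∨ y = ω ∨ y = ω + 1) (Gr : Gram4 σ h ω e f z p)
    (He : ZZ σ h G e) (Hf : ZZ σ h G f) (Hz : ZZ σ h G z) (Hp : ZZ σ h G p)
    (Hup : ZZ σ h G (z + f + (ω + 1) • p)) (y : F) : PP σ h G e (y • p) := by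
  have hω0 : ω ≠ 0 := by
    rintro rfl
    have := hω
    simp at this
  have hω1 : ω + 1 ≠ 0 := by
    intro h0
    rw [h0] at hsω
    have h3 : ω = 0 := by simpa using hsω
    exact hω0 h3
  have s0 : σ 0 = 0 := map_zero σ
  have s1 : σ 1 = 1 := map_one σ
  have s2 : σ (ω + 1) = ω := by
    rw [map_add, hsω, map_one]
    linear_combination h2
  have v_e : ZZ σ h G (vec4 (F := F) e f z p 1 0 0 0) := by
    have : vec4 (F := F) e f z p 1 0 0 0 = e := by simp [vec4]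
    rwa [this]
  have v_f : ZZ σ h G (vec4 (F := F) e f z p 0 1 0 0) := by
    have : vec4 (F := F) e f z p 0 1 0 0 = f := by simp [vec4]
    rwa [this]
  have v_z : ZZ σ h G (vec4 (F := F) e f z p 0 0 1 0) := by
    have : vec4 (F := F) e f z p 0 0 1 0 = z := by simp [vec4]
    rwa [this]
  have v_p : ZZ σ h G (vec4 (F := F) e f z p 0 0 0 1) := by
    have : vec4 (F := F) e f z p 0 0 0 1 = p := by simp [vec4]
    rwa [this]
  have v_up : ZZ σ h G (vec4 e f z p 0 1 1 (ω + 1)) := by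
    have : vec4 e f z p 0 1 1 (ω + 1) = z + f + (ω + 1) • p := by
      simp only [vec4]
      module
    rwa [this]
  -- a₁ = T(f) up
  have a1 : ZZ σ h G (vec4 e f z p 0 ω 1 (ω + 1)) :=
    step4 (κ := ω + 1) S hG h2 Gr s0 s1 s0 s0 v_up v_f (by ring)
      (by grind) (by ring) (by grind) (by ring) (by ring)
  -- a₂ = T(e) f
  have a2 : ZZ σ h G (vec4 e f z p ω 1 0 0) :=
    step4 (κ := ω) S hG h2 Gr s1 s0 s0 s0 v_f v_e (by ring) (by ring) (by ring) (by ring) (by ring) (by ring)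
  -- a₃ = T(z) a₂
  have a3 : ZZ σ h G (vec4 e f z p ω 1 (ω + 1) 0) :=
    step4 (κ := ω + 1) S hG h2 Gr s0 s0 s1 s0 a2 v_z (by ring) (by grind) (by ring) (by ring) (by ring) (by ring)
  -- a₄ = T(a₁) a₃
  have a4 : ZZ σ h G (vec4 e f z p ω 0 0 ω) :=
    step4 (κ := ω + 1) S hG h2 Gr s0 hsω s1 s2 a3 a1 (by grind) (by grind) (by ring) (by grind) (by grind) (by grind)
  -- b₂ = T(z) p
  have b2 : ZZ σ h G (vec4 e f z p 0 0 (ω + 1) 1) :=
    step4 (κ := ω + 1) S hG h2 Gr s0 s0 s1 s0 v_p v_z (by ring) (by grind) (by ring) (by ring) (by ring) (by ring)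
  -- b₃ = T(up) b₂
  have b3 : ZZ σ h G (vec4 e f z p 0 (ω + 1) 0 (ω + 1)) :=
    step4 (κ := ω + 1) S hG h2 Gr s0 s1 s1 s2 b2 v_up (by grind) (by grind) (by ring) (by ring) (by grind) (by grind)
  -- b₄ = T(a₂) b₃
  have b4 : ZZ σ h G (vec4 e f z p 1 0 0 (ω + 1)) :=
    step4 (κ := ω + 1) S hG h2 Gr hsω s1 s0 s0 b3 a2 (by grind) (by grind) (by grind) (by grind) (by ring) (by grind)
  have Q1 : ZZ σ h G (p + e) := by
    have h3 := ZZ.smul' S hσ (inv_ne_zero hω0) a4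
    have h4 : ω⁻¹ • vec4 e f z p ω 0 0 ω = p + e := by
      have hi : ω⁻¹ * ω = 1 := inv_mul_cancel₀ hω0
      simp only [vec4]
      linear_combination (norm := module) hi • (e + p)
    rwa [h4] at h3
  have Q2 : ZZ σ h G ((ω + 1) • p + e) := by
    have h4 : vec4 e f z p 1 0 0 (ω + 1) = (ω + 1) • p + e := by
      simp only [vec4]
      module
    rwa [h4] at b4
  have hc : (1 : F) + σ 1 = 0 := by
    rw [map_one]
    linear_combination h2
  have P1 : PP σ h G e p := by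
    have := pp_of_zz S hσ Gr.ee Gr.pp Gr.pe He Hp Q1 hc
    rwa [one_smul] at this
  have P2 : PP σ h G e ((ω + 1) • p) := by
    have hz' : h ((ω + 1) • p) ((ω + 1) • p) = 0 := by
      simp [S.smul_left, S.smul_right, Gr.pp]
    have hz2 : h ((ω + 1) • p) e = 0 := by
      rw [S.smul_left, Gr.pe, mul_zero]
    have := pp_of_zz S hσ Gr.ee hz' hz2 He (ZZ.smul' S hσ hω1 Hp) Q2 hc
    rwa [one_smul] at this
  rcases hall y with hy | hy | hy | hy
  · rw [hy, zero_smul]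
    exact PP.zero S Gr.ee
  · rwa [hy, one_smul]
  · have h5 := P1.add S P2
    have e5 : p + (ω + 1) • p = ω • p := by
      linear_combination (norm := module) h2 • p
    rwa [e5, ← hy] at h5
  · rwa [hy]

end main

end Cfsg.Agent.Lib.SUReg.Two
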