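/-
The abstract argument: three conjugates of `u` generate the Eichler group.
-/
import Mathlib
import Cfsg.Agent.Lib.SUReg.Two

set_option autoImplicit false
set_option linter.unusedSimpArgs false
set_option linter.unusedSectionVars false
set_option linter.style.haveILetI false
set_option linter.unusedVariables false

namespace Cfsg.Agent.Lib.SUReg.Main

open Module Cfsg.Agent.Lib.Classical.HermBasic Cfsg.Agent.Lib.Classical.HermElem Cfsg.Agent.Lib.Classical.HermGen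
open Cfsg.Agent.Lib.PSUTwo.Basic Cfsg.Agent.Lib.SUReg.Abs

universe u v

variable {F : Type u} [Field F] {V : Type v} [AddCommGroup V] [Module F V]
variable {σ : F →+* F} {h : V → V → F} {G : Subgroup (V ≃ₗ[F] V)}

section main

variable [FiniteDimensional F V] (S : HForm σ h) (hσ : Invol σ)

include S hσ

/-- The commutator of `u` with an Eichler transformation is a transvection. -/
theorem comm_tv {u w : V ≃ₗ[F] V} {e w₀ : V} {l : F} (hu : u ∈ uGroup h) (hue : u e = e) (huw : u w₀ = w₀ + l • e)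
    (Hw : EichAt σ h e w₀ 0 w) : EichAt σ h e 0 (-(l - σ l)) (w * u * w⁻¹ * u⁻¹) := by
  have h1 := Hw.conj hu
  rw [hue, huw] at h1
  have h2 := h1.shift S hσ
  have h3 := Hw.mul S (h2.inv S hσ)
  have hw0 : h w₀ w₀ = 0 := by
    have := Hw.ha
    simpa using this
  have e1 : w₀ + -w₀ = 0 := by abel
  have e2 : 0 + σ (0 + l - σ l) - h (-w₀) w₀ = -(l - σ l) := by
    rw [S.neg_left, hw0]
    simp only [zero_add, map_sub, hσ.invol]
    ring
  rw [e1, e2] at h3
  have e3 : w * (u * w * u⁻¹)⁻¹ = w * u * w⁻¹ * u⁻¹ := by group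
  rwa [e3] at h3

/-- Non-isotropic version of the closure lemma, without normalisation. -/
theorem pp_big' (hG : G ≤ uGroup h) {e f z p : V} (he : h e e = 0) (hf : h f f = 0) (hz : h z z = 0) (hp : h p p = 0)
    (hpe : h p e = 0) (hpf : h p f = 0) (hφ : h f e ≠ 0) (hze : h z e = h f e) (htr : h z f + σ (h z f) ≠ 0)
    (hpz : h p z ≠ 0) (He : ZZ σ h G e) (Hf : ZZ σ h G f) (Hz : ZZ σ h G z) (Hp : ZZ σ h G p)
    (hq : ∀ y : F, σ y = y → ∃ t, σ t = t ∧ t ≠ 0 ∧ t ≠ y) (y : F) : PP σ h G e (y • p) := by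
  set φ := h f e with hφdef
  have hsφ : σ φ ≠ 0 := by simpa using hφ
  have hm : ∀ x, σ (σ x) = x := hσ.invol
  set f₁ := φ⁻¹ • f with hf₁
  have hef : h e f = σ φ := S.conj f e
  have H : IsHP h e f₁ := by
    refine ⟨he, ?_, ?_⟩
    · simp [hf₁, S.smul_left, S.smul_right, hf]
    · rw [hf₁, S.smul_left, ← hφdef, inv_mul_cancel₀ hφ]
  have hef₁ : h e f₁ = 1 := H.ef S
  have Hf₁ : ZZ σ h G f₁ := ZZ.smul' S hσ (inv_ne_zero hφ) Hf
  -- coordinates of `z`
  set A₀ := h z f₁ with hA₀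
  set B₀ := φ with hB₀
  set r := z - A₀ • e - B₀ • f₁ with hr
  have hz_eq : z = A₀ • e + B₀ • f₁ + r := by
    rw [hr]
    abel
  have hre : h r e = 0 := by
    rw [hr]
    simp only [S.sub_left, S.smul_left, he, H.fe, hze, ← hφdef]
    ring
  have hrf : h r f₁ = 0 := by
    rw [hr]
    simp only [S.sub_left, S.smul_left, hef₁, H.ff, ← hA₀]
    ring
  have hA₀' : A₀ * σ B₀ = h z f := by
    rw [hA₀, hf₁, S.smul_right, hB₀, map_inv₀, mul_comm, ← mul_assoc, mul_inv_cancel₀ hsφ, one_mul]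
  have hn0 : A₀ * σ B₀ + σ (A₀ * σ B₀) ≠ 0 := by
    rw [hA₀']
    exact htr
  have hrr : h r r + (A₀ * σ B₀ + σ (A₀ * σ B₀)) = 0 := by
    have h1 := hz
    rw [hz_eq] at h1
    have hre' : h e r = 0 := S.zero_symm hre
    have hrf' : h f₁ r = 0 := S.zero_symm hrf
    simp only [S.add_left, S.add_right, S.smul_left, S.smul_right, he, H.ff, H.fe, hef₁, hre, hrf, hre', hrf'] at h1
    rw [map_mul, hm]
    linear_combination h1
  have Hz' : ZZ σ h G (A₀ • e + B₀ • f₁ + r) := by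
    rwa [← hz_eq]
  have hpf₁ : h p f₁ = 0 := by
    rw [hf₁, S.smul_right, hpf, mul_zero]
  have hκ : h p r ≠ 0 := by
    have : h p r = h p z := by
      rw [hr]
      simp only [S.sub_right, S.smul_right, hpe, hpf₁]
      ring
    rwa [this]
  exact pp_big S hσ hG H hre hrf He Hf₁ hφ hn0 Hz' hrr hp hpe hpf₁ Hp hκ hq y

/-- Finishing: from multiples of `p` to the Eichler group. -/
theorem finish (hG : G ≤ uGroup h) {u : V ≃ₗ[F] V} (huG : u ∈ G) {e f p : V} (he : h e e = 0) (hf : h f f = 0)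
    (hφ : h f e ≠ 0) (hue : u e = e) (He : ZZ σ h G e) (Hf : ZZ σ h G f)
    (HP : ∀ y : F, PP σ h G e (y • p))
    (hspan : ∀ b, h b e = 0 → ∃ (m : ℕ) (c : ℕ → F), b = ∑ k ∈ Finset.range m, c k • (u ^ k) p) :
    eGroup σ h ≤ G := by
  -- all `u`-translates
  have hk : ∀ (k : ℕ) (y : F), PP σ h G e (y • (u ^ k) p) := by
    intro k
    induction k with
    | zero => simpa using HP
    | succ k ih =>
      intro y
      have h1 := PP.conj hG huG (ih y)
      rw [hue, map_smul] at h1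
      have e1 : u ((u ^ k) p) = (u ^ (k + 1)) p := by
        rw [pow_succ']
        rfl
      rwa [e1] at h1
  have hsum : ∀ (m : ℕ) (c : ℕ → F), PP σ h G e (∑ k ∈ Finset.range m, c k • (u ^ k) p) := by
    intro m c
    induction m with
    | zero =>
      rw [Finset.sum_range_zero]
      exact PP.zero S he
    | succ m ih =>
      rw [Finset.sum_range_succ]
      exact ih.add S (hk m (c m))
  have UUe : UU σ h G e := by
    refine uu_of S He hσ fun b hb => ?_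
    obtain ⟨m, c, hbc⟩ := hspan b hb
    refine ⟨b, 0, by simp, ?_⟩
    rw [hbc]
    exact hsum m c
  -- the second member
  set φ := h f e with hφdef
  set f₁ := φ⁻¹ • f with hf₁
  have H : IsHP h e f₁ := by
    refine ⟨he, ?_, ?_⟩
    · simp [hf₁, S.smul_left, S.smul_right, hf]
    · rw [hf₁, S.smul_left, ← hφdef, inv_mul_cancel₀ hφ]
  have Hf₁ : ZZ σ h G f₁ := ZZ.smul' S hσ (inv_ne_zero hφ) Hf
  obtain ⟨c, hc0, hc⟩ := hσ.exists_pure
  obtain ⟨τ₁, τ₂, H1, H2⟩ := exists_nu S H hσ hc0 hc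
  have hτ₁ : τ₁ ∈ G := Hf₁ _ _ H1
  have hτ₂ : τ₂ ∈ G := He _ _ H2
  have hn : τ₁ * τ₂ * τ₁ ∈ G := G.mul_mem (G.mul_mem hτ₁ hτ₂) hτ₁
  obtain ⟨s1, s2, s3⟩ := nu_spec S H hc0 H1 H2
  have U2 := UU.conj hG hn UUe
  rw [s1] at U2
  have hci : -c⁻¹ ≠ 0 := neg_ne_zero.2 (inv_ne_zero hc0)
  have UUf : UU σ h G f₁ := UU.of_smul S hσ hci U2
  exact eGroup_le_of_pair S hσ hG H UUe UUf

end main

section points

variable [Fintype F] [FiniteDimensional F V] (S : HForm σ h) (hσ : Invol σ)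

include S hσ

/-- The points produced by the three conjugates. -/
theorem points {K : Subgroup (V ≃ₗ[F] V)} (hK : K ≤ uGroup h) {u g w : V ≃ₗ[F] V}
    (hu : u ∈ K) (hv : g * u * g⁻¹ ∈ K) (hw : w * u * w⁻¹ ∈ K) (huU : u ∈ uGroup h)
    {a₀ e p f w₀ : V} {l μ τ : F} (he : h e e = 0)
    (hue : u e = e) (huw : u w₀ = w₀ + l • e) (hl : l - σ l ≠ 0) (Hw : EichAt σ h e w₀ 0 w)
    (g0 : g a₀ = e) (g1 : g (u a₀) = p) (g2 : g (u⁻¹ a₀) = μ⁻¹ • u p) (g3 : g (u (u a₀)) = f)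
    (hμ : μ ≠ 0) (hμτ : μ * σ μ = τ * τ)
    (hgen : ∀ x : F, σ x = x → x ≠ 0 → ∃ k : ℕ, x = τ ^ k) :
    ZZ σ h K e ∧ ZZ σ h K p ∧ ZZ σ h K f := by
  set v := g * u * g⁻¹ with hvdef
  have hginv : ∀ x, g⁻¹ (g x) = x := fun x => inv_apply_self g x
  have hve : v e = p := by
    show g (u (g⁻¹ e)) = p
    rw [← g0, hginv, g1]
  have hvp : v p = f := by
    show g (u (g⁻¹ p)) = f
    rw [← g1, hginv, g3]
  have hvg : v (g (u⁻¹ a₀)) = e := by
    show g (u (g⁻¹ (g (u⁻¹ a₀)))) = e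
    rw [hginv, apply_inv_self, g0]
  have hup : u p = μ • g (u⁻¹ a₀) := by
    rw [g2, smul_smul, mul_inv_cancel₀ hμ, one_smul]
  have hs : (v * u * v) e = μ • e := by
    show v (u (v e)) = μ • e
    rw [hve, hup, map_smul, hvg]
  have hT := comm_tv S hσ huU hue huw Hw
  have hTK : w * u * w⁻¹ * u⁻¹ ∈ K := K.mul_mem hw (K.inv_mem hu)
  have hd0 : -(l - σ l) ≠ 0 := neg_ne_zero.2 hl
  have He : ZZ σ h K e :=
    zz_of_scale S hσ hK he hd0 hT hTK (K.mul_mem (K.mul_mem hv hu) hv) hμ hs hμτ hgen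
  have Hp : ZZ σ h K p := by
    have := ZZ.conj' hK hv He
    rwa [hve] at this
  have Hf : ZZ σ h K f := by
    have := ZZ.conj' hK hv Hp
    rwa [hvp] at this
  exact ⟨He, Hp, Hf⟩

end points

end Cfsg.Agent.Lib.SUReg.Main
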