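/-
The algebra `F[u]/(u-1)^n` with its involution `u ↦ u⁻¹`: a model of a regular unipotent element of a unitary group.
-/
import Mathlib
import Cfsg.Agent.Lib.SUReg.Main

set_option autoImplicit false
set_option linter.unusedSimpArgs false
set_option linter.unusedSectionVars false
set_option linter.style.haveILetI false
set_option linter.unusedVariables false

namespace Cfsg.Agent.Lib.SUReg.Alg

open Module Polynomial Cfsg.Agent.Lib.Classical.HermBasic

universe u

variable {F : Type u} [Field F]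

/-- The polynomial `(X-1)^n`. -/
noncomputable abbrev gp (F : Type u) [Field F] (n : ℕ) : F[X] := (X - C 1) ^ n

theorem gp_monic (n : ℕ) : (gp F n).Monic := (monic_X_sub_C 1).pow n

theorem gp_natDegree (n : ℕ) : (gp F n).natDegree = n := by
  rw [gp, (monic_X_sub_C (1 : F)).natDegree_pow, natDegree_X_sub_C, mul_one]

/-- The algebra. -/
abbrev Al (F : Type u) [Field F] (n : ℕ) : Type u := AdjoinRoot (gp F n)

variable {n : ℕ}

/-- The element `u`. -/
noncomputable def uu (F : Type u) [Field F] (n : ℕ) : Al F n := AdjoinRoot.root (gp F n)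

/-- The element `N = u - 1`. -/
noncomputable def NN (F : Type u) [Field F] (n : ℕ) : Al F n := uu F n - 1

theorem mk_X : AdjoinRoot.mk (gp F n) X = uu F n := rfl

theorem mk_X_sub : AdjoinRoot.mk (gp F n) (X - C 1) = NN F n := by
  simp [NN, uu]

theorem NN_pow_eq : NN F n ^ n = 0 := by
  rw [← mk_X_sub, ← map_pow]
  exact AdjoinRoot.mk_self

theorem NN_pow_of_le {k : ℕ} (hk : n ≤ k) : NN F n ^ k = 0 := by
  obtain ⟨d, rfl⟩ := Nat.exists_eq_add_of_le hk
  rw [pow_add, NN_pow_eq, zero_mul]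

theorem NN_pow_ne {k : ℕ} (hk : k < n) : NN F n ^ k ≠ 0 := by
  rw [← mk_X_sub, ← map_pow]
  intro h
  rw [AdjoinRoot.mk_eq_zero] at h
  have h1 := natDegree_le_of_dvd h ((monic_X_sub_C (1 : F)).pow k).ne_zero
  rw [gp_natDegree, (monic_X_sub_C (1 : F)).natDegree_pow, natDegree_X_sub_C] at h1
  omega

theorem uu_eq : uu F n = 1 + NN F n := by
  simp [NN]

theorem isUnit_uu : IsUnit (uu F n) := by
  rw [uu_eq]
  exact IsNilpotent.isUnit_one_add ⟨n, NN_pow_eq⟩

/-- The inverse of `u`. -/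
noncomputable def ub (F : Type u) [Field F] (n : ℕ) : Al F n := ((isUnit_uu (F := F) (n := n)).unit⁻¹ : (Al F n)ˣ)

theorem uu_ub : uu F n * ub F n = 1 := by
  unfold ub
  exact (isUnit_uu (F := F) (n := n)).mul_val_inv

theorem ub_uu : ub F n * uu F n = 1 := by
  rw [mul_comm, uu_ub]

/-- The adjoint of `N`. -/
theorem ub_sub_one : ub F n - 1 = - (ub F n * NN F n) := by
  have := uu_ub (F := F) (n := n)
  rw [NN]
  linear_combination this

variable (σ : F →+* F)

/-- The involution. -/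
noncomputable def tau : Al F n →+* Al F n :=
  AdjoinRoot.lift ((AdjoinRoot.of (gp F n)).comp σ) (ub F n) (by
    show eval₂ _ _ ((X - C 1) ^ n) = 0
    rw [eval₂_pow, eval₂_sub, eval₂_X, eval₂_C, RingHom.comp_apply, map_one, map_one, ub_sub_one, neg_pow, mul_pow,
      NN_pow_eq]
    simp)

@[simp] theorem tau_uu : tau σ (uu F n) = ub F n := by
  unfold tau uu
  exact AdjoinRoot.lift_root _

@[simp] theorem tau_of (c : F) : tau σ (AdjoinRoot.of (gp F n) c) = AdjoinRoot.of (gp F n) (σ c) := by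
  unfold tau
  rw [AdjoinRoot.lift_of]
  rfl

@[simp] theorem tau_ub : tau σ (ub F n) = uu F n := by
  have h1 : tau σ (uu F n * ub F n) = 1 := by rw [uu_ub, map_one]
  rw [map_mul, tau_uu] at h1
  have h2 := uu_ub (F := F) (n := n)
  calc tau σ (ub F n) = (uu F n * ub F n) * tau σ (ub F n) := by rw [h2, one_mul]
    _ = uu F n * (ub F n * tau σ (ub F n)) := by ring
    _ = uu F n := by rw [h1, mul_one]

theorem smul_eq_of (c : F) (x : Al F n) : c • x = AdjoinRoot.of (gp F n) c * x := by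
  rw [Algebra.smul_def, AdjoinRoot.algebraMap_eq]

@[simp] theorem tau_smul (c : F) (x : Al F n) : tau σ (c • x) = σ c • tau σ x := by
  rw [smul_eq_of, map_mul, tau_of, smul_eq_of]

@[simp] theorem tau_NN : tau σ (NN F n) = ub F n - 1 := by
  simp [NN]

theorem tau_tau (hσ : Invol σ) (x : Al F n) : tau σ (tau σ x) = x := by
  have h1 : (tau σ).comp (tau σ) = RingHom.id (Al F n) := by
    apply AdjoinRoot.ringHom_ext
    · ext c
      simp [hσ.invol]
    · show tau σ (tau σ (uu F n)) = uu F n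
      simp
  exact congrArg (fun f : Al F n →+* Al F n => f x) h1

/-- The top power. -/
noncomputable def EE (F : Type u) [Field F] (n : ℕ) : Al F n := NN F n ^ (n - 1)

theorem EE_ne (hn : 1 ≤ n) : EE F n ≠ 0 := NN_pow_ne (by omega)

theorem NN_mul_EE (hn : 1 ≤ n) : NN F n * EE F n = 0 := by
  rw [EE, ← pow_succ', Nat.sub_add_cancel hn, NN_pow_eq]

theorem uu_mul_EE (hn : 1 ≤ n) : uu F n * EE F n = EE F n := by
  rw [uu_eq, add_mul, NN_mul_EE hn, one_mul, add_zero]

theorem ub_mul_EE (hn : 1 ≤ n) : ub F n * EE F n = EE F n := by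
  have := uu_mul_EE (F := F) hn
  calc ub F n * EE F n = ub F n * (uu F n * EE F n) := by rw [this]
    _ = (ub F n * uu F n) * EE F n := by ring
    _ = EE F n := by rw [ub_uu, one_mul]

theorem ub_pow_mul_EE (hn : 1 ≤ n) (k : ℕ) : ub F n ^ k * EE F n = EE F n := by
  induction k with
  | zero => simp
  | succ k ih => rw [pow_succ, mul_assoc, ub_mul_EE hn, ih]

theorem uu_pow_mul_EE (hn : 1 ≤ n) (k : ℕ) : uu F n ^ k * EE F n = EE F n := by
  induction k with
  | zero => simp
  | succ k ih => rw [pow_succ, mul_assoc, uu_mul_EE hn, ih]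

theorem tau_EE (hodd : Odd n) : tau σ (EE F n) = EE F n := by
  have hn : 1 ≤ n := hodd.pos
  rw [EE, map_pow, tau_NN, ub_sub_one, neg_pow, mul_pow, ← EE]
  have h1 : Even (n - 1) := by
    obtain ⟨k, rfl⟩ := hodd
    simp
  rw [h1.neg_one_pow, one_mul, ub_pow_mul_EE hn]

/-- Constant terms. -/
theorem exists_const (x : Al F n) : ∃ (c : F) (y : Al F n), x = c • 1 + NN F n * y := by
  induction x using AdjoinRoot.induction_on with
  | ih P =>
    refine ⟨P.eval 1, AdjoinRoot.mk _ (P /ₘ (X - C 1)), ?_⟩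
    have h1 := modByMonic_add_div P (X - C (1 : F))
    rw [modByMonic_X_sub_C_eq_C_eval] at h1
    conv_lhs => rw [← h1]
    rw [map_add, map_mul, mk_X_sub, add_left_inj, smul_eq_of, mul_one]
    rfl

theorem mul_EE (x : Al F n) (hn : 1 ≤ n) (c : F) (y : Al F n) (hx : x = c • 1 + NN F n * y) :
    x * EE F n = c • EE F n := by
  rw [hx, add_mul, mul_assoc, mul_comm y, ← mul_assoc, NN_mul_EE hn, zero_mul, add_zero, smul_mul_assoc, one_mul]

/-- The kernel of `N`. -/
theorem ker_NN (hn : 1 ≤ n) {y : Al F n} (hy : NN F n * y = 0) : ∃ c : F, y = c • EE F n := by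
  induction y using AdjoinRoot.induction_on with
  | ih P =>
    rw [← mk_X_sub, ← map_mul, AdjoinRoot.mk_eq_zero] at hy
    obtain ⟨m, rfl⟩ := Nat.exists_eq_succ_of_ne_zero (by omega : n ≠ 0)
    have h1 : (X - C (1 : F)) ^ m ∣ P := by
      rw [gp, pow_succ'] at hy
      exact (mul_dvd_mul_iff_left (monic_X_sub_C (1 : F)).ne_zero).1 hy
    obtain ⟨Q, rfl⟩ := h1
    obtain ⟨c, z, hz⟩ := exists_const (AdjoinRoot.mk (gp F (m + 1)) Q)
    refine ⟨c, ?_⟩
    have e1 : EE F (m + 1) = NN F (m + 1) ^ m := rfl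
    rw [map_mul, map_pow, mk_X_sub, ← e1, mul_comm, mul_EE _ (by omega) c z hz]

/-- Every non-zero element has a multiple equal to the top power. -/
theorem exists_mul_EE (hn : 1 ≤ n) {x : Al F n} (hx : x ≠ 0) : ∃ y, x * y = EE F n := by
  classical
  have hex : ∃ k, NN F n ^ k * x = 0 := ⟨n, by rw [NN_pow_eq, zero_mul]⟩
  let k := Nat.find hex
  have hk : NN F n ^ k * x = 0 := Nat.find_spec hex
  have hk0 : k ≠ 0 := by
    intro h0
    have : NN F n ^ k * x = x := by rw [h0]; simp
    rw [this] at hk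
    exact hx hk
  obtain ⟨j, hj⟩ := Nat.exists_eq_succ_of_ne_zero hk0
  have hne : NN F n ^ j * x ≠ 0 := Nat.find_min hex (by omega)
  have h1 : NN F n * (NN F n ^ j * x) = 0 := by
    rw [← mul_assoc, ← pow_succ', ← Nat.succ_eq_add_one, ← hj, hk]
  obtain ⟨c, hc⟩ := ker_NN hn h1
  have hc0 : c ≠ 0 := by
    rintro rfl
    rw [zero_smul] at hc
    exact hne hc
  refine ⟨c⁻¹ • NN F n ^ j, ?_⟩
  rw [mul_smul_comm, mul_comm x, hc, smul_smul, inv_mul_cancel₀ hc0, one_smul]

/-- The spanning property. -/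
theorem exists_sum (x : Al F n) :
    ∃ (m : ℕ) (c : ℕ → F), x = ∑ k ∈ Finset.range m, c k • uu F n ^ k := by
  induction x using AdjoinRoot.induction_on with
  | ih P =>
    refine ⟨P.natDegree + 1, P.coeff, ?_⟩
    conv_lhs => rw [P.as_sum_range_C_mul_X_pow]
    rw [map_sum]
    refine Finset.sum_congr rfl fun k _ => ?_
    rw [map_mul, map_pow, mk_X, smul_eq_of]
    rfl

/-- Multiplication by `u`. -/
noncomputable def UL (F : Type u) [Field F] (n : ℕ) : Al F n ≃ₗ[F] Al F n :=
  LinearEquiv.ofLinearMap (LinearMap.mulLeft F (uu F n)) (LinearMap.mulLeft F (ub F n))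
    (by
      ext x
      simp [← mul_assoc, uu_ub])
    (by
      ext x
      simp [← mul_assoc, ub_uu])

@[simp] theorem UL_apply (x : Al F n) : UL F n x = uu F n * x := rfl

theorem UL_inv_apply (x : Al F n) : (UL F n)⁻¹ x = ub F n * x := rfl

theorem UL_pow_apply (k : ℕ) (x : Al F n) : (UL F n ^ k) x = uu F n ^ k * x := by
  induction k with
  | zero => simp
  | succ k ih =>
    rw [pow_succ', pow_succ']
    show UL F n ((UL F n ^ k) x) = _
    rw [UL_apply, ih, mul_assoc]

section det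

variable [Fintype F]

instance : FiniteDimensional F (Al F n) := by
  by_cases h0 : n = 0
  · subst h0
    exact (AdjoinRoot.powerBasis' (gp_monic (F := F) 0)).finite
  · exact (AdjoinRoot.powerBasis' (gp_monic (F := F) n)).finite

theorem finrank_Al : finrank F (Al F n) = n := by
  rw [(AdjoinRoot.powerBasis' (gp_monic (F := F) n)).finrank]
  exact gp_natDegree n

theorem det_UL (hn : 1 ≤ n) : LinearMap.det ((UL F n : Al F n ≃ₗ[F] Al F n) : Al F n →ₗ[F] Al F n) = 1 := by
  obtain ⟨p, hp⟩ := CharP.exists F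
  haveI := hp
  have hpp : p.Prime := CharP.char_is_prime F p
  haveI : Fact p.Prime := ⟨hpp⟩
  haveI : Nontrivial (Al F n) := ⟨⟨NN F n ^ 0, 0, NN_pow_ne (by omega)⟩⟩
  haveI : CharP (Al F n) p := charP_of_injective_algebraMap (algebraMap F (Al F n)).injective p
  have h1 : uu F n ^ (p ^ n) = 1 := by
    rw [uu_eq, add_pow_char_pow, one_pow, NN_pow_of_le (Nat.lt_pow_self hpp.one_lt).le, add_zero]
  have h2 : UL F n ^ (p ^ n) = 1 := by
    ext x
    rw [UL_pow_apply, h1, one_mul]
    rfl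
  have h3 : (LinearEquiv.det (UL F n) : Fˣ) ^ (p ^ n) = 1 := by
    rw [← map_pow, h2, map_one]
  have h4 : ((LinearEquiv.det (UL F n) : Fˣ) : F) ^ (p ^ n) = 1 := by
    rw [← Units.val_pow_eq_pow_val, h3, Units.val_one]
  have h5 : (((LinearEquiv.det (UL F n) : Fˣ) : F) - 1) ^ (p ^ n) = 0 := by
    rw [sub_pow_char_pow, h4, one_pow, sub_self]
  have h6 := (pow_eq_zero_iff (pow_pos hpp.pos n).ne').1 h5
  rw [LinearEquiv.coe_det] at h6
  exact sub_eq_zero.1 h6

end det

end Cfsg.Agent.Lib.SUReg.Alg
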