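/-
The Hermitian form of a Hermitian functional on `F[u]/(u-1)^n`, and its values.
-/
import Mathlib
import Cfsg.Agent.Lib.SUReg.Alg

set_option autoImplicit false
set_option linter.unusedSimpArgs false
set_option linter.unusedSectionVars false
set_option linter.style.haveILetI false
set_option linter.unusedVariables false

namespace Cfsg.Agent.Lib.SUReg.Form

open Module Polynomial Cfsg.Agent.Lib.Classical.HermBasic Cfsg.Agent.Lib.SUReg.Alg

universe u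

variable {F : Type u} [Field F] {n : ℕ} {σ : F →+* F}

/-- The form of a functional. -/
noncomputable def hA (σ : F →+* F) (ℓ : Al F n →ₗ[F] F) (x y : Al F n) : F := ℓ (x * tau σ y)

/-- The data of the design. -/
structure Des (σ : F →+* F) (ℓ : Al F n →ₗ[F] F) (β π b : F) : Prop where
  herm : ∀ x, ℓ (tau σ x) = σ (ℓ x)
  l0 : ℓ 1 = 0
  l1 : ℓ (uu F n) = 0
  l2 : ℓ (uu F n ^ 2) = β
  l3 : ℓ (uu F n ^ 3) = π
  lE : ℓ (EE F n) = b
  hb : b ≠ 0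

section

variable {ℓ : Al F n →ₗ[F] F} {β π b : F} (D : Des σ ℓ β π b) (hσ : Invol σ) (hn : 1 ≤ n)

include D hσ hn

theorem hform : HForm σ (hA σ ℓ) where
  add_left x y z := by simp [hA, add_mul]
  smul_left a x z := by simp [hA]
  conj x y := by
    rw [hA, hA, ← D.herm]
    congr 1
    rw [map_mul (tau σ), tau_tau σ hσ, mul_comm]
  nd x hx := by
    by_contra hx0
    obtain ⟨y, hy⟩ := exists_mul_EE hn hx0
    have := hx (tau σ y)
    rw [hA, tau_tau σ hσ, hy, D.lE] at this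
    exact D.hb this

omit hσ hn in
theorem UL_iso : (UL F n) ∈ uGroup (hA σ ℓ) := by
  intro x y
  show ℓ (uu F n * x * tau σ (uu F n * y)) = ℓ (x * tau σ y)
  congr 1
  rw [map_mul, tau_uu]
  linear_combination (x * tau σ y) * (uu_ub (F := F) (n := n))

omit hσ hn in
theorem lub1 : ℓ (ub F n) = 0 := by
  have := D.herm (uu F n)
  rwa [tau_uu, D.l1, map_zero] at this

omit hσ hn in
theorem lub2 : ℓ (ub F n ^ 2) = σ β := by
  have := D.herm (uu F n ^ 2)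
  rwa [map_pow, tau_uu, D.l2] at this

omit hσ hn in
theorem lub3 : ℓ (ub F n ^ 3) = σ π := by
  have := D.herm (uu F n ^ 3)
  rwa [map_pow, tau_uu, D.l3] at this

omit hσ in
theorem sb (hodd : Odd n) : σ b = b := by
  have := D.herm (EE F n)
  rw [tau_EE σ hodd, D.lE] at this
  exact this.symm

end

/-- `M = u N`. -/
noncomputable def MM (F : Type u) [Field F] (n : ℕ) : Al F n := uu F n * NN F n

section table

variable {ℓ : Al F n →ₗ[F] F} {β π b : F} (D : Des σ ℓ β π b)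

include D

local notation "𝟙" => (1 : Al F n)
local notation "𝐍" => NN F n
local notation "𝐌" => MM F n
local notation "𝐄" => EE F n

theorem t11 : hA σ ℓ 𝟙 𝟙 = 0 := by
  simp [hA, D.l0]

theorem t1N : hA σ ℓ 𝟙 𝐍 = 0 := by
  simp [hA, lub1 D, D.l0]

theorem t1M : hA σ ℓ 𝟙 𝐌 = σ β := by
  have e1 : 𝟙 * tau σ 𝐌 = ub F n ^ 2 - ub F n := by
    simp only [MM, map_mul, tau_uu, tau_NN]
    ring
  rw [hA, e1, map_sub, lub2 D, lub1 D, sub_zero]

theorem tN1 : hA σ ℓ 𝐍 𝟙 = 0 := by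
  simp [hA, NN, D.l1, D.l0]

theorem tNN : hA σ ℓ 𝐍 𝐍 = 0 := by
  have e1 : 𝐍 * tau σ 𝐍 = 𝟙 + 𝟙 - uu F n - ub F n := by
    simp only [NN, map_sub, tau_uu, map_one]
    linear_combination (uu_ub (F := F) (n := n))
  rw [hA, e1]
  simp [D.l0, D.l1, lub1 D]

theorem tNM : hA σ ℓ 𝐍 𝐌 = - σ β := by
  have e1 : 𝐍 * tau σ 𝐌 = ub F n + ub F n - 𝟙 - ub F n ^ 2 := by
    simp only [NN, MM, map_mul, map_sub, tau_uu, map_one]
    linear_combination (ub F n - 1) * (uu_ub (F := F) (n := n))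
  rw [hA, e1]
  simp [D.l0, lub1 D, lub2 D]

theorem tM1 : hA σ ℓ 𝐌 𝟙 = β := by
  have e1 : 𝐌 * tau σ 𝟙 = uu F n ^ 2 - uu F n := by
    simp only [NN, MM, map_one]
    ring
  rw [hA, e1, map_sub, D.l2, D.l1, sub_zero]

theorem tMN : hA σ ℓ 𝐌 𝐍 = - β := by
  have e1 : 𝐌 * tau σ 𝐍 = uu F n + uu F n - 𝟙 - uu F n ^ 2 := by
    simp only [NN, MM, map_sub, tau_uu, map_one]
    linear_combination (uu F n - 1) * (uu_ub (F := F) (n := n))
  rw [hA, e1]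
  simp [D.l0, D.l1, D.l2]

theorem tMM : hA σ ℓ 𝐌 𝐌 = 0 := by
  have e1 : 𝐌 * tau σ 𝐌 = 𝟙 + 𝟙 - uu F n - ub F n := by
    simp only [NN, MM, map_mul, map_sub, tau_uu, map_one]
    linear_combination (2 + uu F n * ub F n - uu F n - ub F n) * (uu_ub (F := F) (n := n))
  rw [hA, e1]
  simp [D.l0, D.l1, lub1 D]

variable (hσ : Invol σ) (hodd : Odd n)

include hodd

omit D in
theorem tauE : tau σ 𝐄 = 𝐄 := tau_EE σ hodd

theorem t1E : hA σ ℓ 𝟙 𝐄 = b := by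
  rw [hA, tauE hodd, one_mul, D.lE]

theorem tNE : hA σ ℓ 𝐍 𝐄 = 0 := by
  rw [hA, tauE hodd, NN_mul_EE hodd.pos, map_zero]

theorem tME : hA σ ℓ 𝐌 𝐄 = 0 := by
  rw [hA, tauE hodd, MM, mul_assoc, NN_mul_EE hodd.pos, mul_zero, map_zero]

theorem tEE (hn : 3 ≤ n) : hA σ ℓ 𝐄 𝐄 = 0 := by
  rw [hA, tauE hodd, EE, ← pow_add, NN_pow_of_le (by omega), map_zero]

theorem tE1 : hA σ ℓ 𝐄 𝟙 = b := by
  rw [hA, map_one, mul_one, D.lE]

omit hodd in
theorem tEN (hn : 1 ≤ n) (hE : tau σ 𝐄 = 𝐄) : hA σ ℓ 𝐄 𝐍 = 0 := by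
  have h1 : 𝐄 * tau σ 𝐍 = tau σ (𝐍 * 𝐄) := by
    rw [map_mul, hE]
    ring
  rw [hA, h1, NN_mul_EE hn, map_zero, map_zero]

omit hodd in
theorem tEM (hn : 1 ≤ n) (hE : tau σ 𝐄 = 𝐄) : hA σ ℓ 𝐄 𝐌 = 0 := by
  have h1 : 𝐄 * tau σ 𝐌 = tau σ (𝐌 * 𝐄) := by
    rw [map_mul, hE]
    ring
  rw [hA, h1, MM, mul_assoc, NN_mul_EE hn, mul_zero, map_zero, map_zero]

end table

end Cfsg.Agent.Lib.SUReg.Form
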