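/-
Existence of Hermitian functionals with prescribed small values.
-/
import Mathlib
import Cfsg.Agent.Lib.SUReg.Form

set_option autoImplicit false
set_option linter.unusedSimpArgs false
set_option linter.unusedSectionVars false
set_option linter.style.haveILetI false
set_option linter.unusedVariables false

namespace Cfsg.Agent.Lib.SUReg.Ell

open Module Polynomial Cfsg.Agent.Lib.Classical.HermBasic Cfsg.Agent.Lib.SUReg.Alg Cfsg.Agent.Lib.SUReg.Form

universe u

variable {F : Type u} [Field F] {n : ℕ} {σ : F →+* F}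

/-- Coefficient functionals. -/
noncomputable def coefL (F : Type u) [Field F] (n i : ℕ) : Al F n →ₗ[F] F :=
  (Polynomial.lcoeff F i) ∘ₗ AdjoinRoot.modByMonicHom (gp_monic n)

theorem coefL_mk (i : ℕ) (P : F[X]) (hP : P.natDegree < n) :
    coefL F n i (AdjoinRoot.mk (gp F n) P) = P.coeff i := by
  have h1 : P %ₘ gp F n = P := by
    rw [(modByMonic_eq_self_iff (gp_monic n))]
    have hn : n ≠ 0 := by omega
    rw [degree_eq_natDegree (gp_monic (F := F) n).ne_zero, gp_natDegree]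
    exact lt_of_le_of_lt degree_le_natDegree (by exact_mod_cast hP)
  show (AdjoinRoot.modByMonicHom (gp_monic n) (AdjoinRoot.mk (gp F n) P)).coeff i = P.coeff i
  rw [AdjoinRoot.modByMonicHom_mk, h1]

theorem coefL_pow (i j : ℕ) (hj : j < n) : coefL F n i (uu F n ^ j) = if i = j then 1 else 0 := by
  have e1 : uu F n ^ j = AdjoinRoot.mk (gp F n) (X ^ j) := by
    rw [map_pow, mk_X]
  rw [e1, coefL_mk i _ (by rwa [natDegree_X_pow]), coeff_X_pow]

theorem coefL_EE (hn : 1 ≤ n) : coefL F n (n - 1) (EE F n) = 1 := by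
  have e1 : EE F n = AdjoinRoot.mk (gp F n) ((X - C 1) ^ (n - 1)) := by
    rw [map_pow, mk_X_sub, EE]
  have hm : ((X - C (1 : F)) ^ (n - 1)).Monic := (monic_X_sub_C 1).pow _
  have hd : ((X - C (1 : F)) ^ (n - 1)).natDegree = n - 1 := by
    rw [(monic_X_sub_C (1 : F)).natDegree_pow, natDegree_X_sub_C, mul_one]
  rw [e1, coefL_mk _ _ (by omega)]
  have := hm.coeff_natDegree
  rwa [hd] at this

/-- Hermitisation of a functional. -/
noncomputable def hermL (hσ : Invol σ) (ℓ : Al F n →ₗ[F] F) : Al F n →ₗ[F] F where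
  toFun x := ℓ x + σ (ℓ (tau σ x))
  map_add' x y := by
    simp only [map_add]
    ring
  map_smul' c x := by
    simp only [tau_smul, map_smul, smul_eq_mul, map_mul, hσ.invol, RingHom.id_apply]
    ring

@[simp] theorem hermL_apply (hσ : Invol σ) (ℓ : Al F n →ₗ[F] F) (x : Al F n) :
    hermL hσ ℓ x = ℓ x + σ (ℓ (tau σ x)) := rfl

theorem hermL_herm (hσ : Invol σ) (ℓ : Al F n →ₗ[F] F) (x : Al F n) :
    hermL hσ ℓ (tau σ x) = σ (hermL hσ ℓ x) := by
  simp only [hermL_apply, tau_tau σ hσ, map_add, hσ.invol]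
  ring

/-- The functional with the value `c` at `u^k`. -/
noncomputable def WW (hσ : Invol σ) (m k : ℕ) (c : F) : Al F n →ₗ[F] F :=
  hermL hσ (c • (coefL F n (m + k) ∘ₗ LinearMap.mulLeft F (uu F n ^ m)))

theorem ub_pow_aux {m j : ℕ} (hj : j ≤ m) : uu F n ^ m * ub F n ^ j = uu F n ^ (m - j) := by
  obtain ⟨d, rfl⟩ := Nat.exists_eq_add_of_le hj
  rw [Nat.add_sub_cancel_left, add_comm, pow_add, mul_assoc, ← mul_pow, uu_ub, one_pow, mul_one]

theorem WW_pow (hσ : Invol σ) {m k j : ℕ} (hk : 1 ≤ k) (hj : j ≤ m) (hn : n = 2 * m + 1) (c : F) :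
    WW (n := n) hσ m k c (uu F n ^ j) = if k = j then c else 0 := by
  have h1 : coefL F n (m + k) (uu F n ^ m * uu F n ^ j) = if k = j then 1 else 0 := by
    rw [← pow_add, coefL_pow _ _ (by omega)]
    simp
  have h2 : coefL F n (m + k) (uu F n ^ m * ub F n ^ j) = 0 := by
    rw [ub_pow_aux hj, coefL_pow _ _ (by omega), if_neg (by omega)]
  simp only [WW, hermL_apply, LinearMap.smul_apply, LinearMap.comp_apply, LinearMap.mulLeft_apply, map_pow, tau_uu,
    h1, h2, smul_eq_mul, mul_zero, map_zero, add_zero]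
  split_ifs <;> simp

theorem WW_top (hσ : Invol σ) {m : ℕ} (hn : n = 2 * m + 1) (c : F) :
    WW (n := n) hσ m m c (EE F n) = c + σ c := by
  have hodd : Odd n := by
    rw [hn]
    exact odd_two_mul_add_one m
  have h1 : coefL F n (m + m) (uu F n ^ m * EE F n) = 1 := by
    rw [uu_pow_mul_EE (by omega)]
    have := coefL_EE (F := F) (n := n) (by omega)
    have e : n - 1 = m + m := by omega
    rwa [e] at this
  simp only [WW, hermL_apply, LinearMap.smul_apply, LinearMap.comp_apply, LinearMap.mulLeft_apply, tau_EE σ hodd, h1,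
    smul_eq_mul, mul_one]

theorem WW_herm (hσ : Invol σ) (m k : ℕ) (c : F) (x : Al F n) :
    WW (n := n) hσ m k c (tau σ x) = σ (WW (n := n) hσ m k c x) := hermL_herm _ _ _

theorem exists_beta (hσ : Invol σ) : ∃ β : F, σ β ≠ β ∧ β + σ β ≠ 0 := by
  obtain ⟨x, hx⟩ := hσ.exists_trace 1 (map_one σ)
  obtain ⟨ε, hε0, hε⟩ := hσ.exists_pure
  by_cases hs : σ x = x
  · have h2 : (2 : F) ≠ 0 := by
      intro h20
      rw [hs] at hx
      apply one_ne_zero (α := F)
      rw [← hx]
      linear_combination x * h20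
    refine ⟨x + ε, ?_, ?_⟩
    · intro h
      rw [map_add, hs] at h
      have : σ ε = ε := by linear_combination h
      rw [this] at hε
      have h3 : (2 : F) * ε = 0 := by linear_combination hε
      exact (mul_ne_zero h2 hε0) h3
    · rw [map_add]
      have : x + ε + (σ x + σ ε) = 1 := by linear_combination hx + hε
      rw [this]
      exact one_ne_zero
  · refine ⟨x, hs, ?_⟩
    rw [hx]
    exact one_ne_zero

/-- The relation in dimension five. -/
theorem rel5 : uu F 5 ^ 3 = (5 : ℕ) • uu F 5 ^ 2 - (10 : ℕ) • uu F 5 + (10 : ℕ) • 1 - (5 : ℕ) • ub F 5 + ub F 5 ^ 2 := by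
  have h1 : (uu F 5 - 1) ^ 5 = 0 := NN_pow_eq
  have h2 := uu_ub (F := F) (n := 5)
  set a := uu F 5
  set b := ub F 5
  simp only [nsmul_eq_mul, Nat.cast_ofNat]
  linear_combination b ^ 2 * h1 -
    (((a * b - 1 + 2) * (a ^ 3 - 5 * a ^ 2 + 10 * a - 10)) + 5 * b) * h2

theorem exists_des (hσ : Invol σ) {m : ℕ} (hm : 2 ≤ m) (hn : n = 2 * m + 1) :
    ∃ (ℓ : Al F n →ₗ[F] F) (β π b : F), Des σ ℓ β π b ∧ β + σ β ≠ 0 ∧ π ≠ 0 := by
  obtain ⟨β, hβ1, hβ2⟩ := exists_beta hσ
  obtain ⟨x, hx⟩ := hσ.exists_trace 1 (map_one σ)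
  obtain ⟨ε, hε0, hε⟩ := hσ.exists_pure
  have hx0 : x ≠ 0 := by
    rintro rfl
    simp at hx
  rcases (by omega : m = 2 ∨ m = 3 ∨ 4 ≤ m) with rfl | rfl | hm4
  · subst hn
    let ℓ : Al F (2 * 2 + 1) →ₗ[F] F := WW hσ 2 2 β
    have v0 : ℓ 1 = 0 := by
      have := WW_pow (n := 5) hσ (m := 2) (k := 2) (j := 0) (by omega) (by omega) rfl β
      simpa using this
    have v1 : ℓ (uu F _) = 0 := by
      have := WW_pow (n := 5) hσ (m := 2) (k := 2) (j := 1) (by omega) (by omega) rfl β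
      simpa using this
    have v2 : ℓ (uu F _ ^ 2) = β := by
      have := WW_pow (n := 5) hσ (m := 2) (k := 2) (j := 2) (by omega) (by omega) rfl β
      simpa using this
    have vb1 : ℓ (ub F _) = 0 := by
      have := WW_herm (n := 5) hσ 2 2 β (uu F _)
      rw [tau_uu] at this
      show WW hσ 2 2 β (ub F 5) = 0
      rw [this]
      show σ (ℓ (uu F _)) = 0
      rw [v1, map_zero]
    have vb2 : ℓ (ub F _ ^ 2) = σ β := by
      have := WW_herm (n := 5) hσ 2 2 β (uu F _ ^ 2)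
      rw [map_pow, tau_uu] at this
      show WW hσ 2 2 β (ub F 5 ^ 2) = σ β
      rw [this]
      show σ (ℓ (uu F _ ^ 2)) = σ β
      rw [v2]
    have v3 : ℓ (uu F _ ^ 3) = 5 * β + σ β := by
      have := rel5 (F := F)
      show ℓ (uu F 5 ^ 3) = _
      rw [this]
      simp only [map_add, map_sub, map_nsmul]
      show (5 : ℕ) • ℓ (uu F _ ^ 2) - (10 : ℕ) • ℓ (uu F _) + (10 : ℕ) • ℓ 1 - (5 : ℕ) • ℓ (ub F _) + ℓ (ub F _ ^ 2) = _
      rw [v0, v1, v2, vb1, vb2]
      simp
    have hπ : 5 * β + σ β ≠ 0 := by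
      intro h0
      have h1 := congrArg σ h0
      simp only [map_add, map_mul, hσ.invol, map_zero, map_ofNat] at h1
      have h4 : (4 : F) * (β - σ β) = 0 := by linear_combination h0 - h1
      have h5 : (4 : F) = 0 := by
        rcases mul_eq_zero.1 h4 with h | h
        · exact h
        · exact absurd (sub_eq_zero.1 h).symm hβ1
      apply hβ2
      linear_combination h0 - β * h5
    refine ⟨ℓ, β, 5 * β + σ β, β + σ β, ⟨?_, v0, v1, v2, v3, ?_, hβ2⟩, hβ2, hπ⟩
    · exact fun y => WW_herm hσ 2 2 β y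
    · exact WW_top hσ rfl β
  · subst hn
    let ℓ₁ : Al F (2 * 3 + 1) →ₗ[F] F := WW hσ 3 2 β
    have a0 : ℓ₁ 1 = 0 := by
      have := WW_pow (n := 7) hσ (m := 3) (k := 2) (j := 0) (by omega) (by omega) rfl β
      simpa using this
    have a1 : ℓ₁ (uu F _) = 0 := by
      have := WW_pow (n := 7) hσ (m := 3) (k := 2) (j := 1) (by omega) (by omega) rfl β
      simpa using this
    have a2 : ℓ₁ (uu F _ ^ 2) = β := by
      have := WW_pow (n := 7) hσ (m := 3) (k := 2) (j := 2) (by omega) (by omega) rfl β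
      simpa using this
    have a3 : ℓ₁ (uu F _ ^ 3) = 0 := by
      have := WW_pow (n := 7) hσ (m := 3) (k := 2) (j := 3) (by omega) (by omega) rfl β
      simpa using this
    -- the value at the top decides the parameter
    obtain ⟨π, hπ0, hπ⟩ : ∃ π : F, π ≠ 0 ∧ ℓ₁ (EE F _) + (π + σ π) ≠ 0 := by
      by_cases hL : ℓ₁ (EE F _) = 0
      · refine ⟨x, hx0, ?_⟩
        rw [hL, hx, zero_add]
        exact one_ne_zero
      · refine ⟨ε, hε0, ?_⟩
        rw [hε, add_zero]
        exact hL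
    let ℓ₂ : Al F (2 * 3 + 1) →ₗ[F] F := WW hσ 3 3 π
    have b0 : ℓ₂ 1 = 0 := by
      have := WW_pow (n := 7) hσ (m := 3) (k := 3) (j := 0) (by omega) (by omega) rfl π
      simpa using this
    have b1 : ℓ₂ (uu F _) = 0 := by
      have := WW_pow (n := 7) hσ (m := 3) (k := 3) (j := 1) (by omega) (by omega) rfl π
      simpa using this
    have b2 : ℓ₂ (uu F _ ^ 2) = 0 := by
      have := WW_pow (n := 7) hσ (m := 3) (k := 3) (j := 2) (by omega) (by omega) rfl π
      simpa using this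
    have b3 : ℓ₂ (uu F _ ^ 3) = π := by
      have := WW_pow (n := 7) hσ (m := 3) (k := 3) (j := 3) (by omega) (by omega) rfl π
      simpa using this
    have bE : ℓ₂ (EE F _) = π + σ π := WW_top hσ rfl π
    refine ⟨ℓ₁ + ℓ₂, β, π, ℓ₁ (EE F _) + (π + σ π), ⟨?_, ?_, ?_, ?_, ?_, ?_, hπ⟩, hβ2, hπ0⟩
    · intro y
      rw [LinearMap.add_apply, LinearMap.add_apply, map_add]
      exact congrArg₂ (· + ·) (WW_herm hσ 3 2 β y) (WW_herm hσ 3 3 π y)
    · rw [LinearMap.add_apply, a0, b0, add_zero]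
    · rw [LinearMap.add_apply, a1, b1, add_zero]
    · rw [LinearMap.add_apply, a2, b2, add_zero]
    · rw [LinearMap.add_apply, a3, b3, zero_add]
    · rw [LinearMap.add_apply, bE]
  · let ℓ₁ : Al F n →ₗ[F] F := WW hσ m 2 β + WW hσ m 3 1
    have a0 : ℓ₁ 1 = 0 := by
      have h1 := WW_pow (n := n) hσ (m := m) (k := 2) (j := 0) (by omega) (by omega) hn β
      have h2 := WW_pow (n := n) hσ (m := m) (k := 3) (j := 0) (by omega) (by omega) hn 1
      simp only [pow_zero] at h1 h2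
      simp [ℓ₁, h1, h2]
    have a1 : ℓ₁ (uu F _) = 0 := by
      have h1 := WW_pow (n := n) hσ (m := m) (k := 2) (j := 1) (by omega) (by omega) hn β
      have h2 := WW_pow (n := n) hσ (m := m) (k := 3) (j := 1) (by omega) (by omega) hn 1
      simp only [pow_one] at h1 h2
      simp [ℓ₁, h1, h2]
    have a2 : ℓ₁ (uu F _ ^ 2) = β := by
      have h1 := WW_pow (n := n) hσ (m := m) (k := 2) (j := 2) (by omega) (by omega) hn β
      have h2 := WW_pow (n := n) hσ (m := m) (k := 3) (j := 2) (by omega) (by omega) hn 1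
      simp [ℓ₁, h1, h2]
    have a3 : ℓ₁ (uu F _ ^ 3) = 1 := by
      have h1 := WW_pow (n := n) hσ (m := m) (k := 2) (j := 3) (by omega) (by omega) hn β
      have h2 := WW_pow (n := n) hσ (m := m) (k := 3) (j := 3) (by omega) (by omega) hn 1
      simp [ℓ₁, h1, h2]
    obtain ⟨c, hc⟩ : ∃ c : F, ℓ₁ (EE F _) + (c + σ c) ≠ 0 := by
      by_cases hL : ℓ₁ (EE F _) = 0
      · refine ⟨x, ?_⟩
        rw [hL, hx, zero_add]
        exact one_ne_zero
      · refine ⟨0, ?_⟩
        simpa using hL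
    let ℓ₂ : Al F n →ₗ[F] F := WW hσ m m c
    have b0 : ℓ₂ 1 = 0 := by
      have := WW_pow (n := n) hσ (m := m) (k := m) (j := 0) (by omega) (by omega) hn c
      rw [pow_zero, if_neg (by omega)] at this
      exact this
    have b1 : ℓ₂ (uu F _) = 0 := by
      have := WW_pow (n := n) hσ (m := m) (k := m) (j := 1) (by omega) (by omega) hn c
      rw [pow_one, if_neg (by omega)] at this
      exact this
    have b2 : ℓ₂ (uu F _ ^ 2) = 0 := by
      have := WW_pow (n := n) hσ (m := m) (k := m) (j := 2) (by omega) (by omega) hn c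
      rw [if_neg (by omega)] at this
      exact this
    have b3 : ℓ₂ (uu F _ ^ 3) = 0 := by
      have := WW_pow (n := n) hσ (m := m) (k := m) (j := 3) (by omega) (by omega) hn c
      rw [if_neg (by omega)] at this
      exact this
    have bE : ℓ₂ (EE F _) = c + σ c := WW_top hσ hn c
    refine ⟨ℓ₁ + ℓ₂, β, 1, ℓ₁ (EE F _) + (c + σ c), ⟨?_, ?_, ?_, ?_, ?_, ?_, hc⟩, hβ2, one_ne_zero⟩
    · intro y
      simp only [ℓ₁, ℓ₂, LinearMap.add_apply, map_add]
      rw [WW_herm hσ m 2 β y, WW_herm hσ m 3 1 y, WW_herm hσ m m c y]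
    · rw [LinearMap.add_apply, a0, b0, add_zero]
    · rw [LinearMap.add_apply, a1, b1, add_zero]
    · rw [LinearMap.add_apply, a2, b2, add_zero]
    · rw [LinearMap.add_apply, a3, b3, add_zero]
    · rw [LinearMap.add_apply, bE]

end Cfsg.Agent.Lib.SUReg.Ell
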