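/-
The Gram matrices of the pinned vectors, linear independence, and the element `g`.
-/
import Mathlib
import Cfsg.Agent.Lib.SUReg.Ell
import Cfsg.Agent.Lib.Witt.HermParabolic
import Cfsg.Agent.Lib.Witt.HermModel
import Cfsg.Agent.Lib.Classical.HermBridge

set_option autoImplicit false
set_option linter.unusedSimpArgs false
set_option linter.unusedSectionVars false
set_option linter.style.haveILetI false
set_option linter.unusedVariables false

namespace Cfsg.Agent.Lib.SUReg.Pin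

open Module Polynomial Cfsg.Agent.Lib.Classical.HermBasic Cfsg.Agent.Lib.Classical.HermElem
open Cfsg.Agent.Lib.Classical.HermGen Cfsg.Agent.Lib.SUReg.Alg Cfsg.Agent.Lib.SUReg.Form

universe u v

section abstract

open Cfsg.Agent.Lib.HermCount.Field Cfsg.Agent.Lib.Classical.HermBridge

variable {F : Type u} [Field F] [Fintype F] {q : ℕ} (hF : Fintype.card F = q ^ 2)
variable {V : Type v} [AddCommGroup V] [Module F V] [FiniteDimensional F V] {h : V → V → F}
variable (S : HForm (frobHom hF) h)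

include S

/-- Witt's theorem for an abstract Hermitian space. -/
theorem witt_abs {k : ℕ} (s t : Fin k → V) (hs : LinearIndependent F s) (ht : LinearIndependent F t)
    (hg : ∀ i j, h (s i) (s j) = h (t i) (t j)) :
    ∃ g ∈ uGroup h, ∀ i, g (s i) = t i := by
  haveI : Finite V := Module.finite_of_finite F
  have HS : Cfsg.Agent.Lib.HermCount.Space.HSpace q h := ⟨S.add_left, S.smul_left, S.conj, S.nd⟩
  obtain ⟨ψ, hψ⟩ := Cfsg.Agent.Lib.Witt.HermModel.exists_model HS hF (finrank F V) rfl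
  have hψ' : ∀ x y, Cfsg.hermForm (finrank F V) F q (ψ.symm x) (ψ.symm y) = h x y := by
    intro x y
    rw [← hψ, ψ.apply_symm_apply, ψ.apply_symm_apply]
  obtain ⟨g₀, hg₀, hg₁⟩ := Cfsg.Agent.Lib.Witt.HermParabolic.witt_herm hF (fun i => ψ.symm (s i)) (fun i => ψ.symm (t i))
    (hs.map' ψ.symm.toLinearMap (LinearEquiv.ker _)) (ht.map' ψ.symm.toLinearMap (LinearEquiv.ker _))
    (fun i j => by rw [hψ', hψ', hg])
  refine ⟨ψ.symm.trans (g₀.trans ψ), ?_, fun i => ?_⟩
  · intro x y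
    show h (ψ (g₀ (ψ.symm x))) (ψ (g₀ (ψ.symm y))) = h x y
    rw [hψ, hg₀, hψ']
  · show ψ (g₀ (ψ.symm (s i))) = t i
    rw [hg₁, ψ.apply_symm_apply]

variable (hσ : Invol (frobHom hF))

include hσ

/-- A non-isotropic vector orthogonal to two orthogonal hyperbolic pairs. -/
theorem exists_perp (hdim : 5 ≤ finrank F V) {e₁ f₁ e₂ f₂ : V} (H₁ : IsHP h e₁ f₁) (H₂ : IsHP h e₂ f₂)
    (a1 : h e₂ e₁ = 0) (a2 : h e₂ f₁ = 0) (a3 : h f₂ e₁ = 0) (a4 : h f₂ f₁ = 0) :
    ∃ x, h x x ≠ 0 ∧ h x e₁ = 0 ∧ h x f₁ = 0 ∧ h x e₂ = 0 ∧ h x f₂ = 0 := by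
  have hfr := finrank_perp2 S H₁
  have S' := restrict S H₁
  let e₂' : perp2 S e₁ f₁ := ⟨e₂, a1, a2⟩
  let f₂' : perp2 S e₁ f₁ := ⟨f₂, a3, a4⟩
  have H' : IsHP (fun a b : perp2 S e₁ f₁ => h a b) e₂' f₂' := ⟨H₂.ee, H₂.ff, H₂.fe⟩
  obtain ⟨x, hx, hxx⟩ := exists_nonisotropic_perp2 S' hσ (by omega) H'
  exact ⟨x.1, hxx, x.2.1, x.2.2, hx.1, hx.2⟩

/-- Witt's theorem in the special unitary group. -/
theorem exists_su {k : ℕ} (s t : Fin k → V) (hs : LinearIndependent F s) (ht : LinearIndependent F t)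
    (hg : ∀ i j, h (s i) (s j) = h (t i) (t j)) {x : V} (hx : h x x ≠ 0) (hxs : ∀ i, h (s i) x = 0) :
    ∃ g ∈ suGroup h, ∀ i, g (s i) = t i := by
  obtain ⟨g₀, hg₀, hg₁⟩ := witt_abs hF S s t hs ht hg
  -- the determinant has norm one
  obtain ⟨ε, hε, r, hr, rfl⟩ := gu_decomp hσ _ V h S rfl g₀ hg₀
  rcases hr with rfl | ⟨w, β, HQ⟩
  · refine ⟨ε * 1, ?_, hg₁⟩
    rw [mul_one, suGroup_eq_eGroup hσ S]
    exact hε
  · have hβ0 : β ≠ 0 := by
      rintro rfl
      have := HQ.norm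
      simp at this
    have hnorm : β⁻¹ * frobHom hF β⁻¹ = 1 := by
      rw [map_inv₀, ← mul_inv, HQ.norm, inv_one]
    obtain ⟨Q, HQ'⟩ := exists_qrAt S hx hnorm
    refine ⟨ε * r * Q, ?_, fun i => ?_⟩
    · rw [mem_suGroup]
      have hεs : ε ∈ suGroup h := by
        rw [suGroup_eq_eGroup hσ S]
        exact hε
      have h1 := (mem_suGroup.1 hεs)
      refine ⟨(uGroup h).mul_mem hg₀ (HQ'.mem_uGroup S), ?_⟩
      have e1 : ((ε * r * Q : V ≃ₗ[F] V) : V →ₗ[F] V) = (ε : V →ₗ[F] V) * (r : V →ₗ[F] V) * (Q : V →ₗ[F] V) := rfl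
      rw [e1, map_mul, map_mul, h1.2, HQ.det S, HQ'.det S, one_mul, mul_inv_cancel₀ hβ0]
    · show (ε * r) (Q (s i)) = t i
      rw [HQ'.apply_orth (hxs i)]
      exact hg₁ i

end abstract

section gram

variable {F : Type u} [Field F] {n : ℕ} {σ : F →+* F} {ℓ : Al F n →ₗ[F] F} {β π b : F}

/-- The parameters. -/
structure Par (σ : F →+* F) (β π b μ l c ξ : F) : Prop where
  hμ : μ ≠ 0
  hl : l ≠ 0
  hc : c * b = β
  hle : l * σ β = -(μ * σ μ) * β
  hξ : (ξ - 1) * (β * β) = π * μ * b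
  hβ : β ≠ 0

/-- `p`. -/
noncomputable abbrev pV (F : Type u) [Field F] (n : ℕ) (μ : F) : Al F n := μ • NN F n

/-- `p''`. -/
noncomputable abbrev qV (F : Type u) [Field F] (n : ℕ) (μ l : F) : Al F n := (l⁻¹ * μ) • MM F n

/-- `f`. -/
noncomputable abbrev fV (F : Type u) [Field F] (n : ℕ) (c ξ : F) : Al F n := c • 1 + (c * ξ) • NN F n

/-- `z`. -/
noncomputable abbrev zV (F : Type u) [Field F] (n : ℕ) (c ξ : F) : Al F n := c • 1 + c • NN F n + (c * ξ) • MM F n

theorem UL_fV (c ξ : F) : UL F n (fV F n c ξ) = zV F n c ξ := by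
  simp only [UL_apply, mul_add, mul_smul_comm, mul_one]
  rw [show uu F n * NN F n = MM F n from rfl, uu_eq]
  module

theorem UL_NN : UL F n (NN F n) = MM F n := rfl

variable (D : Des σ ℓ β π b) (hσ : Invol σ) (hodd : Odd n) (hn3 : 3 ≤ n) {μ l c ξ : F}

include D hσ hodd hn3

theorem gram_form : HForm σ (hA σ ℓ) := hform D hσ hodd.pos

/-- The Gram values of the targets. -/
theorem tgt_table (P : Par σ β π b μ l c ξ) :
    hA σ ℓ (EE F n) (EE F n) = 0 ∧ hA σ ℓ (EE F n) (pV F n μ) = 0 ∧ hA σ ℓ (EE F n) (qV F n μ l) = 0 ∧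
    hA σ ℓ (EE F n) (fV F n c ξ) = σ β ∧ hA σ ℓ (pV F n μ) (pV F n μ) = 0 ∧ hA σ ℓ (pV F n μ) (qV F n μ l) = β ∧
    hA σ ℓ (pV F n μ) (fV F n c ξ) = 0 ∧ hA σ ℓ (qV F n μ l) (qV F n μ l) = 0 ∧
    hA σ ℓ (qV F n μ l) (fV F n c ξ) = σ π ∧ hA σ ℓ (fV F n c ξ) (fV F n c ξ) = 0 := by
  have S := hform D hσ hodd.pos
  have hE := tauE (F := F) (σ := σ) hodd
  have hn1 := hodd.pos
  have sb' := sb D hn1 hodd
  have e1 := t11 D
  have e2 := t1N D
  have e3 := tN1 D
  have e4 := tNN D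
  have e5 := tNM D
  have e6 := tM1 D
  have e7 := tMN D
  have e8 := tMM D
  have e9 := tEE D hodd hn3
  have e10 := tEN D hn1 hE
  have e11 := tEM D hn1 hE
  have e12 := tE1 D hodd
  have hl0 := P.hl
  have hsl : σ l ≠ 0 := by simpa using hl0
  have hβ0 := P.hβ
  have hsβ : σ β ≠ 0 := by simpa using hβ0
  have hc' : σ c * b = σ β := by
    have := congrArg σ P.hc
    rwa [map_mul, sb'] at this
  have hle' : σ l * β = -(μ * σ μ) * σ β := by
    have := congrArg σ P.hle
    simp only [map_mul, map_neg, hσ.invol] at this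
    linear_combination this
  have hξ' : (σ ξ - 1) * (σ β * σ β) = σ π * σ μ * b := by
    have := congrArg σ P.hξ
    simp only [map_mul, map_sub, map_one, sb'] at this
    exact this
  refine ⟨e9, ?_, ?_, ?_, ?_, ?_, ?_, ?_, ?_, ?_⟩
  · simp only [pV, S.smul_right, e10, mul_zero]
  · simp only [qV, S.smul_right, e11, mul_zero]
  · simp only [fV, S.add_right, S.smul_right, e12, e10, mul_zero, add_zero, mul_one]
    linear_combination hc'
  · simp only [pV, S.smul_right, S.smul_left, e4, mul_zero]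
  · simp only [pV, qV, S.smul_right, S.smul_left, e5, map_mul, map_inv₀]
    field_simp
    linear_combination -hle'
  · simp only [pV, fV, S.add_right, S.smul_right, S.smul_left, e3, e4, mul_zero, add_zero]
  · simp only [qV, S.smul_right, S.smul_left, e8, mul_zero]
  · simp only [qV, fV, S.add_right, S.smul_right, S.smul_left, e6, e7, map_mul]
    -- a computation in the field
    have hb0 := D.hb
    have h2 : l⁻¹ * l = 1 := inv_mul_cancel₀ hl0
    have h3 : μ * σ μ * β = - (l * σ β) := by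
      have := P.hle
      linear_combination this
    have key : μ * σ c * β * (1 - σ ξ) * (σ β * σ β) = σ π * l * (σ β * σ β) := by
      linear_combination (-μ * σ c * β) * hξ' - (σ π * σ c * b) * h3 + (σ π * l * σ β) * hc'
    have k2 : μ * σ c * β * (1 - σ ξ) = σ π * l := mul_right_cancel₀ (mul_ne_zero hsβ hsβ) key
    linear_combination l⁻¹ * k2 + σ π * h2
  · simp only [fV, S.add_left, S.add_right, S.smul_right, S.smul_left, e1, e2, e3, e4, mul_zero, add_zero]

omit hn3 hodd hσ in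
/-- The Gram values of the source vectors. -/
theorem src_table :
    hA σ ℓ 1 1 = 0 ∧ hA σ ℓ 1 (uu F n) = 0 ∧ hA σ ℓ 1 (ub F n) = 0 ∧ hA σ ℓ 1 (uu F n ^ 2) = σ β ∧
    hA σ ℓ (uu F n) (uu F n) = 0 ∧ hA σ ℓ (uu F n) (ub F n) = β ∧ hA σ ℓ (uu F n) (uu F n ^ 2) = 0 ∧
    hA σ ℓ (ub F n) (ub F n) = 0 ∧ hA σ ℓ (ub F n) (uu F n ^ 2) = σ π ∧ hA σ ℓ (uu F n ^ 2) (uu F n ^ 2) = 0 := by
  have h1 := uu_ub (F := F) (n := n)
  have h2 := ub_uu (F := F) (n := n)
  refine ⟨?_, ?_, ?_, ?_, ?_, ?_, ?_, ?_, ?_, ?_⟩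
  · simp [hA, D.l0]
  · simp [hA, lub1 D]
  · simp [hA, D.l1]
  · simp [hA, lub2 D]
  · simp only [hA, tau_uu, h1, D.l0]
  · simp only [hA, tau_ub, ← pow_two, D.l2]
  · have : uu F n * tau σ (uu F n ^ 2) = ub F n := by
      rw [map_pow, tau_uu]
      linear_combination ub F n * h1
    simp only [hA, this, lub1 D]
  · simp only [hA, tau_ub, h2, D.l0]
  · have : ub F n * tau σ (uu F n ^ 2) = ub F n ^ 3 := by
      rw [map_pow, tau_uu]
      ring
    simp only [hA, this, lub3 D]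
  · have : uu F n ^ 2 * tau σ (uu F n ^ 2) = 1 := by
      rw [map_pow, tau_uu]
      linear_combination (uu F n * ub F n + 1) * h1
    simp only [hA, this, D.l0]

omit D hσ hodd hn3 in
/-- Linear independence of the source vectors. -/
theorem li_src (hn : 5 ≤ n) : LinearIndependent F ![(1 : Al F n), uu F n, ub F n, uu F n ^ 2] := by
  rw [Fintype.linearIndependent_iff]
  intro a ha
  rw [Fin.sum_univ_four] at ha
  simp only [Matrix.cons_val_zero, Matrix.cons_val_one, Matrix.cons_val] at ha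
  have h1 : a 2 • (1 : Al F n) + a 0 • uu F n + a 1 • uu F n ^ 2 + a 3 • uu F n ^ 3 = 0 := by
    have h2 := congrArg (fun x => uu F n * x) ha
    simp only [mul_add, mul_smul_comm, uu_ub, mul_one, mul_zero] at h2
    rw [← h2]
    have e1 : uu F n * uu F n = uu F n ^ 2 := by ring
    have e2 : uu F n * uu F n ^ 2 = uu F n ^ 3 := by ring
    rw [e1, e2]
    abel
  have hc : ∀ i : ℕ, a 2 * (if i = 0 then 1 else 0) + a 0 * (if i = 1 then 1 else 0) + a 1 * (if i = 2 then 1 else 0) +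
      a 3 * (if i = 3 then 1 else 0) = 0 := by
    intro i
    have h2 := congrArg (Ell.coefL F n i) h1
    simp only [map_add, map_smul, map_zero, smul_eq_mul] at h2
    have p0 := Ell.coefL_pow (F := F) (n := n) i 0 (by omega)
    have p1 := Ell.coefL_pow (F := F) (n := n) i 1 (by omega)
    have p2 := Ell.coefL_pow (F := F) (n := n) i 2 (by omega)
    have p3 := Ell.coefL_pow (F := F) (n := n) i 3 (by omega)
    rw [pow_zero] at p0
    rw [pow_one] at p1
    rw [p0, p1, p2, p3] at h2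
    exact h2
  have c0 := hc 0
  have c1 := hc 1
  have c2 := hc 2
  have c3 := hc 3
  simp at c0 c1 c2 c3
  intro i
  fin_cases i
  · exact c1
  · exact c2
  · exact c0
  · exact c3

omit D hσ hodd hn3 in
/-- Linear independence of the target vectors. -/
theorem li_tgt (hn : 5 ≤ n) (hμ : μ ≠ 0) (hl : l ≠ 0) (hc : c ≠ 0) :
    LinearIndependent F ![EE F n, pV F n μ, qV F n μ l, fV F n c ξ] := by
  have hn1 : 1 ≤ n := by omega
  have hE0 : EE F n ≠ 0 := EE_ne hn1
  have hNE := NN_mul_EE (F := F) hn1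
  have hM : MM F n = NN F n + NN F n ^ 2 := by
    rw [MM, uu_eq]
    ring
  have hEE : NN F n * NN F n ^ (n - 2) = EE F n := by
    rw [← pow_succ', EE]
    congr 1
    omega
  have hEE2 : NN F n * NN F n ^ (n - 3) = NN F n ^ (n - 2) := by
    rw [← pow_succ']
    congr 1
    omega
  have hEE3 : NN F n ^ 2 * NN F n ^ (n - 2) = 0 := by
    rw [← pow_add]
    exact NN_pow_of_le (by omega)
  have hEE4 : NN F n ^ 2 * NN F n ^ (n - 3) = EE F n := by
    rw [← pow_add, EE]
    congr 1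
    omega
  have hEE5 : EE F n * NN F n ^ (n - 2) = 0 := by
    rw [EE, ← pow_add]
    exact NN_pow_of_le (by omega)
  have hEE6 : EE F n * NN F n ^ (n - 3) = 0 := by
    rw [EE, ← pow_add]
    exact NN_pow_of_le (by omega)
  have hEE7 : EE F n * EE F n = 0 := by
    rw [EE, ← pow_add]
    exact NN_pow_of_le (by omega)
  have hN2 : NN F n ^ 2 * EE F n = 0 := by
    rw [pow_two, mul_assoc, hNE, mul_zero]
  have hne : NN F n ^ (n - 2) ≠ 0 := NN_pow_ne (by omega)
  rw [Fintype.linearIndependent_iff]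
  intro a ha
  rw [Fin.sum_univ_four] at ha
  simp only [Matrix.cons_val_zero, Matrix.cons_val_one, Matrix.cons_val, pV, qV, fV, hM] at ha
  -- multiply by `E`
  have k1 : (a 3 * c) • EE F n = 0 := by
    have h2 := congrArg (fun x => x * EE F n) ha
    simp only [add_mul, smul_mul_assoc, mul_smul_comm, smul_add, hNE, hN2, hEE7, zero_mul, smul_zero, add_zero, zero_add,
      one_mul] at h2
    rw [smul_smul] at h2
    exact h2
  have a3 : a 3 = 0 := by
    rcases smul_eq_zero.1 k1 with h | h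
    · exact (mul_eq_zero.1 h).resolve_right hc
    · exact absurd h hE0
  rw [a3] at ha
  simp only [zero_smul, add_zero] at ha
  -- multiply by `N^(n-2)`
  have k2 : (a 1 * μ + a 2 * (l⁻¹ * μ)) • EE F n = 0 := by
    have h2 := congrArg (fun x => x * NN F n ^ (n - 2)) ha
    simp only [add_mul, smul_mul_assoc, hEE, hEE3, hEE5, zero_mul, smul_zero, add_zero, zero_add, smul_add] at h2
    rw [add_smul, mul_smul, mul_smul]
    exact h2
  have k3 : a 1 * μ + a 2 * (l⁻¹ * μ) = 0 := by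
    rcases smul_eq_zero.1 k2 with h | h
    · exact h
    · exact absurd h hE0
  -- multiply by `N^(n-3)`
  have k4 : (a 2 * (l⁻¹ * μ)) • EE F n = 0 := by
    have h2 := congrArg (fun x => x * NN F n ^ (n - 3)) ha
    simp only [add_mul, smul_mul_assoc, hEE2, hEE4, hEE6, zero_mul, smul_zero, add_zero, zero_add, smul_add] at h2
    have e1 : a 1 • μ • NN F n ^ (n - 2) + (a 2 • (l⁻¹ * μ) • NN F n ^ (n - 2) + a 2 • (l⁻¹ * μ) • EE F n) =
        (a 1 * μ + a 2 * (l⁻¹ * μ)) • NN F n ^ (n - 2) + (a 2 * (l⁻¹ * μ)) • EE F n := by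
      module
    rw [e1, k3, zero_smul, zero_add] at h2
    exact h2
  have a2 : a 2 = 0 := by
    rcases smul_eq_zero.1 k4 with h | h
    · rcases mul_eq_zero.1 h with h | h
      · exact h
      · exact absurd h (mul_ne_zero (inv_ne_zero hl) hμ)
    · exact absurd h hE0
  have a1 : a 1 = 0 := by
    rw [a2] at k3
    simp only [zero_mul, add_zero] at k3
    exact (mul_eq_zero.1 k3).resolve_right hμ
  have a0 : a 0 = 0 := by
    rw [a1, a2] at ha
    simp only [zero_smul, add_zero] at ha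
    exact (smul_eq_zero.1 ha).resolve_right hE0
  intro i
  fin_cases i
  · exact a0
  · exact a1
  · exact a2
  · exact a3

end gram

end Cfsg.Agent.Lib.SUReg.Pin
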