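/-
Assembling the three conjugates in the algebra model.
-/
import Mathlib
import Cfsg.Agent.Lib.SUReg.Pin

set_option autoImplicit false
set_option linter.unusedSimpArgs false
set_option linter.unusedSectionVars false
set_option linter.style.haveILetI false
set_option linter.unusedVariables false

namespace Cfsg.Agent.Lib.SUReg.Asm

open Module Polynomial Cfsg.Agent.Lib.Classical.HermBasic Cfsg.Agent.Lib.Classical.HermElem
open Cfsg.Agent.Lib.Classical.HermGen Cfsg.Agent.Lib.SUReg.Alg Cfsg.Agent.Lib.SUReg.Form Cfsg.Agent.Lib.SUReg.Pin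
open Cfsg.Agent.Lib.PSUTwo.Basic Cfsg.Agent.Lib.SUReg.Abs Cfsg.Agent.Lib.SUReg.Main
open Cfsg.Agent.Lib.HermCount.Field Cfsg.Agent.Lib.Classical.HermBridge

universe u

variable {F : Type u} [Field F] [Fintype F] {q : ℕ} (hF : Fintype.card F = q ^ 2) {n : ℕ}
variable {ℓ : Al F n →ₗ[F] F} {β π b μ l c ξ : F}

local notation "σ₀" => frobHom hF

variable (D : Des (frobHom hF) ℓ β π b) (hodd : Odd n) (hn : 5 ≤ n)

include D hodd hn

/-- The element `g`. -/
theorem exists_g (P : Par (frobHom hF) β π b μ l c ξ) :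
    ∃ g ∈ suGroup (hA (frobHom hF) ℓ), g 1 = EE F n ∧ g (uu F n) = pV F n μ ∧ g (ub F n) = qV F n μ l ∧
      g (uu F n ^ 2) = fV F n c ξ := by
  have hσ := invol_frob hF
  have S := hform D hσ hodd.pos
  have hm : ∀ x, frobHom hF (frobHom hF x) = x := hσ.invol
  have hβ0 := P.hβ
  have hsβ : frobHom hF β ≠ 0 := (_root_.map_ne_zero _).2 hβ0
  have hc0 : c ≠ 0 := by
    intro h0
    have := P.hc
    rw [h0, zero_mul] at this
    exact hβ0 this.symm
  obtain ⟨s0, s1, s2, s3, s4, s5, s6, s7, s8, s9⟩ := src_table D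
  obtain ⟨t0, t1, t2, t3, t4, t5, t6, t7, t8, t9⟩ := tgt_table D hσ hodd (by omega) P
  set s : Fin 4 → Al F n := ![1, uu F n, ub F n, uu F n ^ 2] with hs
  set t : Fin 4 → Al F n := ![EE F n, pV F n μ, qV F n μ l, fV F n c ξ] with ht
  have hup : ∀ i j : Fin 4, i ≤ j → hA (frobHom hF) ℓ (s i) (s j) = hA (frobHom hF) ℓ (t i) (t j) := by
    intro i j hij
    fin_cases i <;> fin_cases j <;> first
      | exact absurd hij (by decide)
      | exact s0.trans t0.symm
      | exact s1.trans t1.symm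
      | exact s2.trans t2.symm
      | exact s3.trans t3.symm
      | exact s4.trans t4.symm
      | exact s5.trans t5.symm
      | exact s6.trans t6.symm
      | exact s7.trans t7.symm
      | exact s8.trans t8.symm
      | exact s9.trans t9.symm
  have hgram : ∀ i j : Fin 4, hA (frobHom hF) ℓ (s i) (s j) = hA (frobHom hF) ℓ (t i) (t j) := by
    intro i j
    rcases le_total i j with hij | hij
    · exact hup i j hij
    · rw [S.conj (s j) (s i), S.conj (t j) (t i), hup j i hij]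
  -- a non-isotropic vector orthogonal to the sources
  have hfr : finrank F (Al F n) = n := finrank_Al
  have s5' : hA (frobHom hF) ℓ (ub F n) (uu F n) = frobHom hF β := by
    rw [S.conj (uu F n) (ub F n), s5]
  have s3' : hA (frobHom hF) ℓ (uu F n ^ 2) 1 = β := by
    rw [S.conj 1 (uu F n ^ 2), s3, hm]
  set κ := frobHom hF π / frobHom hF β with hκ
  have hκ' : κ * frobHom hF β = frobHom hF π := by
    rw [hκ]
    field_simp
  have H₁ : IsHP (hA (frobHom hF) ℓ) 1 (β⁻¹ • uu F n ^ 2) := by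
    refine ⟨s0, ?_, ?_⟩
    · simp only [S.smul_left, S.smul_right, s9, mul_zero]
    · rw [S.smul_left, s3', inv_mul_cancel₀ hβ0]
  have H₂ : IsHP (hA (frobHom hF) ℓ) (uu F n) ((frobHom hF β)⁻¹ • (ub F n - κ • 1)) := by
    refine ⟨s4, ?_, ?_⟩
    · simp only [S.smul_left, S.smul_right, S.sub_left, S.sub_right, s7, s2, s0]
      have : hA (frobHom hF) ℓ (ub F n) 1 = 0 := by
        rw [S.conj 1 (ub F n), s2, map_zero]
      rw [this]
      ring
    · rw [S.smul_left, S.sub_left, S.smul_left, s5']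
      have : hA (frobHom hF) ℓ 1 (uu F n) = 0 := s1
      rw [this, mul_zero, sub_zero, inv_mul_cancel₀ hsβ]
  have a1 : hA (frobHom hF) ℓ (uu F n) 1 = 0 := by
    rw [S.conj 1 (uu F n), s1, map_zero]
  have a2 : hA (frobHom hF) ℓ (uu F n) (β⁻¹ • uu F n ^ 2) = 0 := by
    rw [S.smul_right, s6, mul_zero]
  have hub1 : hA (frobHom hF) ℓ (ub F n) 1 = 0 := by
    rw [S.conj 1 (ub F n), s2, map_zero]
  have a3 : hA (frobHom hF) ℓ ((frobHom hF β)⁻¹ • (ub F n - κ • 1)) 1 = 0 := by
    simp only [S.smul_left, S.sub_left, hub1, s0]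
    ring
  have a4 : hA (frobHom hF) ℓ ((frobHom hF β)⁻¹ • (ub F n - κ • 1)) (β⁻¹ • uu F n ^ 2) = 0 := by
    simp only [S.smul_left, S.smul_right, S.sub_left, s8, s3]
    rw [← hκ']
    ring
  obtain ⟨x, hxx, x1, x2, x3, x4⟩ := exists_perp hF S hσ (by rw [hfr]; exact hn) H₁ H₂ a1 a2 a3 a4
  have hx2 : hA (frobHom hF) ℓ x (uu F n ^ 2) = 0 := by
    rw [S.smul_right] at x2
    have hi : frobHom hF β⁻¹ ≠ 0 := (_root_.map_ne_zero _).2 (inv_ne_zero hβ0)
    exact (mul_eq_zero.1 x2).resolve_left hi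
  have hx4 : hA (frobHom hF) ℓ x (ub F n) = 0 := by
    rw [S.smul_right, S.sub_right, S.smul_right, x1] at x4
    have hi : frobHom hF (frobHom hF β)⁻¹ ≠ 0 := (_root_.map_ne_zero _).2 (inv_ne_zero hsβ)
    have := (mul_eq_zero.1 x4).resolve_left hi
    rwa [mul_zero, sub_zero] at this
  have hxs : ∀ i, hA (frobHom hF) ℓ (s i) x = 0 := by
    intro i
    apply S.zero_symm
    fin_cases i
    · exact x1
    · exact x3
    · exact hx4
    · exact hx2
  obtain ⟨g, hg, hgt⟩ := exists_su hF S hσ s t (li_src hn) (li_tgt hn P.hμ P.hl hc0) hgram hxx hxs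
  exact ⟨g, hg, hgt 0, hgt 1, hgt 2, hgt 3⟩

/-- The spanning property. -/
theorem span_al : ∀ x, hA (frobHom hF) ℓ x (EE F n) = 0 →
    ∃ (m : ℕ) (c : ℕ → F), x = ∑ k ∈ Finset.range m, c k • (UL F n ^ k) (NN F n) := by
  intro x hx
  obtain ⟨c₀, y, hxy⟩ := exists_const x
  have h1 : c₀ = 0 := by
    have h2 : x * EE F n = c₀ • EE F n := mul_EE x hodd.pos c₀ y hxy
    rw [hA, tau_EE _ hodd, h2, map_smul, D.lE, smul_eq_mul] at hx
    exact (mul_eq_zero.1 hx).resolve_right D.hb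
  obtain ⟨m, a, hy⟩ := exists_sum y
  refine ⟨m, a, ?_⟩
  rw [hxy, h1, zero_smul, zero_add, hy, Finset.mul_sum]
  refine Finset.sum_congr rfl fun k _ => ?_
  rw [UL_pow_apply, mul_smul_comm, mul_comm]

end Cfsg.Agent.Lib.SUReg.Asm
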