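/-
The three conjugates in the model: the points and the conclusion.
-/
import Mathlib
import Cfsg.Agent.Lib.SUReg.Asm

set_option autoImplicit false
set_option linter.unusedSimpArgs false
set_option linter.unusedSectionVars false
set_option linter.style.haveILetI false
set_option linter.unusedVariables false

namespace Cfsg.Agent.Lib.SUReg.Core

open Module Polynomial Cfsg.Agent.Lib.Classical.HermBasic Cfsg.Agent.Lib.Classical.HermElem
open Cfsg.Agent.Lib.Classical.HermGen Cfsg.Agent.Lib.SUReg.Alg Cfsg.Agent.Lib.SUReg.Form Cfsg.Agent.Lib.SUReg.Pin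
open Cfsg.Agent.Lib.PSUTwo.Basic Cfsg.Agent.Lib.SUReg.Abs Cfsg.Agent.Lib.SUReg.Main
open Cfsg.Agent.Lib.HermCount.Field Cfsg.Agent.Lib.Classical.HermBridge Cfsg.Agent.Lib.SUReg.Asm

universe u

section gram

variable {F : Type u} [Field F] {n : ℕ} {σ : F →+* F} {ℓ : Al F n →ₗ[F] F} {β π b μ l c ξ : F}
variable (D : Des σ ℓ β π b) (hσ : Invol σ) (hodd : Odd n)

include D hσ hodd

/-- `h(z,f)`. -/
theorem h_zf : hA σ ℓ (zV F n c ξ) (fV F n c ξ) = c * σ c * (β * ξ * (1 - σ ξ)) := by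
  have S := hform D hσ hodd.pos
  simp only [zV, fV, S.add_left, S.add_right, S.smul_left, S.smul_right, t11 D, t1N D, tN1 D, tNN D, tM1 D, tMN D,
    map_mul]
  ring

/-- `h(p,z)`. -/
theorem h_pz : hA σ ℓ (pV F n μ) (zV F n c ξ) = -(μ * σ c * σ ξ * σ β) := by
  have S := hform D hσ hodd.pos
  simp only [pV, zV, S.add_right, S.smul_left, S.smul_right, tN1 D, tNN D, tNM D, map_mul]
  ring

/-- `h(N,z)`. -/
theorem h_Nz : hA σ ℓ (NN F n) (zV F n c ξ) = -(σ c * σ ξ * σ β) := by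
  have S := hform D hσ hodd.pos
  simp only [zV, S.add_right, S.smul_right, tN1 D, tNN D, tNM D, map_mul]
  ring

end gram

variable {F : Type u} [Field F] [Fintype F] {q : ℕ} (hF : Fintype.card F = q ^ 2) {n : ℕ}
variable {ℓ : Al F n →ₗ[F] F} {β π b μ l c ξ τ : F}

local notation "σ₀" => frobHom hF

/-- The subgroup generated by the three conjugates. -/
noncomputable abbrev KK (F : Type u) [Field F] (n : ℕ) (g w : Al F n ≃ₗ[F] Al F n) : Subgroup (Al F n ≃ₗ[F] Al F n) :=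
  Subgroup.closure {UL F n, g * UL F n * g⁻¹, w * UL F n * w⁻¹}

variable (D : Des (frobHom hF) ℓ β π b) (hodd : Odd n) (hn : 5 ≤ n)

include D hodd hn

/-- The auxiliary Eichler transformation. -/
theorem exists_w : ∃ (w₀ : Al F n) (l₀ : F) (w : Al F n ≃ₗ[F] Al F n), l₀ - σ₀ l₀ ≠ 0 ∧
    UL F n w₀ = w₀ + l₀ • EE F n ∧ EichAt σ₀ (hA σ₀ ℓ) (EE F n) w₀ 0 w := by
  have hσ := invol_frob hF
  have S := hform D hσ hodd.pos
  obtain ⟨l₀, hl₀, -⟩ := Ell.exists_beta hσ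
  have hn2 : NN F n ^ (n - 2) * EE F n = 0 := by
    rw [EE, ← pow_add, NN_pow_of_le (by omega)]
  have hw0 : UL F n (l₀ • NN F n ^ (n - 2)) = l₀ • NN F n ^ (n - 2) + l₀ • EE F n := by
    rw [map_smul, UL_apply, uu_eq, EE, ← smul_add]
    congr 1
    rw [show n - 1 = (n - 2) + 1 by omega, pow_succ]
    ring
  have he : hA σ₀ ℓ (EE F n) (EE F n) = 0 := tEE D hodd (by omega)
  have hwe : hA σ₀ ℓ (l₀ • NN F n ^ (n - 2)) (EE F n) = 0 := by
    rw [S.smul_left, hA, tau_EE _ hodd, hn2, map_zero, mul_zero]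
  have hww : hA σ₀ ℓ (l₀ • NN F n ^ (n - 2)) (l₀ • NN F n ^ (n - 2)) = 0 := by
    rw [S.smul_left, S.smul_right, hA, map_pow]
    have h1 : tau σ₀ (NN F n) = -(ub F n * NN F n) := by
      rw [tau_NN, ub_sub_one]
    have h2 : NN F n ^ (n - 2) * (-(ub F n * NN F n)) ^ (n - 2) = 0 := by
      rw [neg_pow, mul_pow]
      have : NN F n ^ (n - 2) * ((-1) ^ (n - 2) * (ub F n ^ (n - 2) * NN F n ^ (n - 2))) =
          ((-1) ^ (n - 2) * ub F n ^ (n - 2)) * NN F n ^ ((n - 2) + (n - 2)) := by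
        rw [pow_add]
        ring
      rw [this, NN_pow_of_le (by omega), mul_zero]
    rw [h1, h2, map_zero, mul_zero, mul_zero]
  obtain ⟨w, hw⟩ := exists_eichAt S he hwe (a := 0) (by rw [hww, map_zero]; simp)
  exact ⟨_, l₀, w, sub_ne_zero.2 (Ne.symm hl₀), hw0, hw⟩

/-- The points reached by the three conjugates. -/
theorem core (P : Par σ₀ β π b μ l c ξ) (hlτ : l * σ₀ l = τ * τ)
    (hgen : ∀ x : F, σ₀ x = x → x ≠ 0 → ∃ k : ℕ, x = τ ^ k) :
    ∃ g ∈ suGroup (hA σ₀ ℓ), ∃ w ∈ suGroup (hA σ₀ ℓ), KK F n g w ≤ suGroup (hA σ₀ ℓ) ∧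
      ZZ σ₀ (hA σ₀ ℓ) (KK F n g w) (EE F n) ∧ ZZ σ₀ (hA σ₀ ℓ) (KK F n g w) (pV F n μ) ∧
      ZZ σ₀ (hA σ₀ ℓ) (KK F n g w) (fV F n c ξ) ∧ ZZ σ₀ (hA σ₀ ℓ) (KK F n g w) (zV F n c ξ) ∧
      ZZ σ₀ (hA σ₀ ℓ) (KK F n g w) (μ • MM F n) := by
  have hσ := invol_frob hF
  have S := hform D hσ hodd.pos
  obtain ⟨g, hg, g0, g1, g2, g3⟩ := exists_g hF D hodd hn P
  obtain ⟨w₀, l₀, w, hl₀, huw, hw⟩ := exists_w hF D hodd hn
  have hwS : w ∈ suGroup (hA σ₀ ℓ) := hw.mem_suGroup S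
  have huS : UL F n ∈ suGroup (hA σ₀ ℓ) := by
    rw [mem_suGroup]
    exact ⟨UL_iso D, det_UL (by omega)⟩
  have hK : KK F n g w ≤ suGroup (hA σ₀ ℓ) := by
    rw [Subgroup.closure_le]
    intro x hx
    rcases hx with rfl | rfl | rfl
    · exact huS
    · exact (suGroup _).mul_mem ((suGroup _).mul_mem hg huS) ((suGroup _).inv_mem hg)
    · exact (suGroup _).mul_mem ((suGroup _).mul_mem hwS huS) ((suGroup _).inv_mem hwS)
  have hK' : KK F n g w ≤ uGroup (hA σ₀ ℓ) := hK.trans inf_le_left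
  have hu : UL F n ∈ KK F n g w := Subgroup.subset_closure (by simp)
  have hv : g * UL F n * g⁻¹ ∈ KK F n g w := Subgroup.subset_closure (by simp)
  have hwK : w * UL F n * w⁻¹ ∈ KK F n g w := Subgroup.subset_closure (by simp)
  have e1 : UL F n (1 : Al F n) = uu F n := by rw [UL_apply, mul_one]
  have e2 : (UL F n)⁻¹ (1 : Al F n) = ub F n := by rw [UL_inv_apply, mul_one]
  have e3 : UL F n (UL F n (1 : Al F n)) = uu F n ^ 2 := by
    rw [e1, UL_apply, pow_two]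
  have hue : UL F n (EE F n) = EE F n := by rw [UL_apply, uu_mul_EE hodd.pos]
  have hpq : l⁻¹ • UL F n (pV F n μ) = qV F n μ l := by
    rw [pV, map_smul, qV, smul_smul]
    rfl
  obtain ⟨He, Hp, Hf⟩ := points S hσ hK' hu hv hwK (UL_iso D) (a₀ := 1) (e := EE F n) (p := pV F n μ)
    (f := fV F n c ξ) (w₀ := w₀) (l := l₀) (μ := l) (τ := τ) (tEE D hodd (by omega)) hue huw hl₀ hw
    g0 (by rw [e1]; exact g1) (by rw [e2, g2, hpq]) (by rw [e3]; exact g3) P.hl hlτ hgen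
  refine ⟨g, hg, w, hwS, hK, He, Hp, Hf, ?_, ?_⟩
  · have := ZZ.conj' hK' hu Hf
    rwa [UL_fV] at this
  · have := ZZ.conj' hK' hu Hp
    rwa [pV, map_smul, UL_NN] at this

/-- From all multiples of `N`. -/
theorem close_of_pp {K : Subgroup (Al F n ≃ₗ[F] Al F n)} (hK : K ≤ suGroup (hA σ₀ ℓ)) (hu : UL F n ∈ K)
    (P : Par σ₀ β π b μ l c ξ) (He : ZZ σ₀ (hA σ₀ ℓ) K (EE F n)) (Hf : ZZ σ₀ (hA σ₀ ℓ) K (fV F n c ξ))
    (HP : ∀ y : F, PP σ₀ (hA σ₀ ℓ) K (EE F n) (y • NN F n)) : suGroup (hA σ₀ ℓ) ≤ K := by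
  have hσ := invol_frob hF
  have S := hform D hσ hodd.pos
  obtain ⟨t0, t1, t2, t3, t4, t5, t6, t7, t8, t9⟩ := tgt_table D hσ hodd (by omega) P
  have hfe : hA σ₀ ℓ (fV F n c ξ) (EE F n) = β := by
    rw [S.conj (EE F n) (fV F n c ξ), t3, hσ.invol]
  have hue : UL F n (EE F n) = EE F n := by rw [UL_apply, uu_mul_EE hodd.pos]
  rw [suGroup_eq_eGroup hσ S]
  refine finish S hσ (hK.trans inf_le_left) hu t0 t9 (by rw [hfe]; exact P.hβ) hue He Hf HP ?_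
  exact span_al hF D hodd hn

end Cfsg.Agent.Lib.SUReg.Core
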