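/-
Selection of the parameters and the two main cases.
-/
import Mathlib
import Cfsg.Agent.Lib.SUReg.Core
import Cfsg.Agent.Lib.PSUTwo.Fld

set_option autoImplicit false
set_option linter.unusedSimpArgs false
set_option linter.unusedSectionVars false
set_option linter.style.haveILetI false
set_option linter.unusedVariables false

namespace Cfsg.Agent.Lib.SUReg.Sel

open Module Polynomial Cfsg.Agent.Lib.Classical.HermBasic Cfsg.Agent.Lib.Classical.HermElem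
open Cfsg.Agent.Lib.Classical.HermGen Cfsg.Agent.Lib.SUReg.Alg Cfsg.Agent.Lib.SUReg.Form Cfsg.Agent.Lib.SUReg.Pin
open Cfsg.Agent.Lib.PSUTwo.Basic Cfsg.Agent.Lib.SUReg.Abs Cfsg.Agent.Lib.SUReg.Main
open Cfsg.Agent.Lib.HermCount.Field Cfsg.Agent.Lib.Classical.HermBridge Cfsg.Agent.Lib.SUReg.Asm
open Cfsg.Agent.Lib.SUReg.Core

universe u

section fieldl

variable {F : Type u} [Field F] {σ : F →+* F}

/-- If three traces agree then `γ² = 1`. -/
theorem tr_sel (hσ : Invol σ) {κ γ C : F} (hκ : κ ≠ 0) (hγ : γ * σ γ = 1) (h1 : κ + σ κ = C)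
    (h2 : κ * γ + σ (κ * γ) = C) (h3 : κ * (γ * γ) + σ (κ * (γ * γ)) = C) : γ * γ = 1 := by
  simp only [map_mul] at h2 h3
  set x := κ * (1 - γ) with hx
  have hsx : σ x = σ κ * (1 - σ γ) := by
    rw [hx, map_mul, map_sub, map_one]
  have t1 : x + σ x = 0 := by
    rw [hsx, hx]
    linear_combination h1 - h2
  have t2 : x * γ + σ x * σ γ = 0 := by
    rw [hsx, hx]
    linear_combination h2 - h3
  by_cases hx0 : x = 0
  · have : 1 - γ = 0 := (mul_eq_zero.1 (by rw [← hx]; exact hx0)).resolve_left hκ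
    have hg : γ = 1 := by linear_combination -this
    rw [hg, one_mul]
  · have e1 : x * (γ - σ γ) = 0 := by
      linear_combination t2 - σ γ * t1
    have e2 : γ - σ γ = 0 := (mul_eq_zero.1 e1).resolve_left hx0
    have hg : σ γ = γ := (sub_eq_zero.1 e2).symm
    rwa [hg] at hγ

end fieldl

variable {F : Type u} [Field F] [Fintype F] {q : ℕ} (hF : Fintype.card F = q ^ 2)

local notation "σ₀" => frobHom hF

/-- Choice of the parameters. -/
theorem exists_params {β π b : F} (hβ : β ≠ 0) (hπ : π ≠ 0) (hb : b ≠ 0) :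
    ∃ μ l c ξ τ : F, Par σ₀ β π b μ l c ξ ∧ l * σ₀ l = τ * τ ∧
      (∀ x : F, σ₀ x = x → x ≠ 0 → ∃ k : ℕ, x = τ ^ k) ∧
      c * σ₀ c * (β * ξ * (1 - σ₀ ξ)) + σ₀ (c * σ₀ c * (β * ξ * (1 - σ₀ ξ))) ≠ 0 ∧ ξ ≠ 0 ∧ c ≠ 0 := by
  classical
  have hσ := invol_frob hF
  have hm : ∀ x, σ₀ (σ₀ x) = x := hσ.invol
  have hq2 := two_le hF
  obtain ⟨g₀, hg₀⟩ := IsCyclic.exists_generator (α := Fˣ)
  set ρ : F := (g₀ : F) with hρdef
  have hρ0 : ρ ≠ 0 := g₀.ne_zero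
  have hord : orderOf ρ = Fintype.card F - 1 := by
    rw [hρdef, orderOf_units, orderOf_eq_card_of_forall_mem_zpowers hg₀, Nat.card_eq_fintype_card,
      Fintype.card_units]
  set α := ρ ^ (q - 1) with hα
  have hαN := Cfsg.Agent.Lib.PSUTwo.Fld.alpha_norm hF hq2 hρ0 hord
  rw [← hα] at hαN
  have hαsq := Cfsg.Agent.Lib.PSUTwo.Fld.alpha_sq_ne hF hq2 hρ0 hord
  rw [← hα] at hαsq
  have hα0 : α ≠ 0 := pow_ne_zero _ hρ0
  set γ := α⁻¹ with hγdef
  have hsγ : σ₀ γ = α := by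
    rw [hγdef, map_inv₀, frobHom_apply, hαN, inv_inv]
  have hγ : γ * σ₀ γ = 1 := by
    rw [hsγ, hγdef, inv_mul_cancel₀ hα0]
  set τ := ρ * σ₀ ρ with hτ
  have hsτ : σ₀ τ = τ := by
    rw [hτ, map_mul, hm, mul_comm]
  have hτ0 : τ ≠ 0 := mul_ne_zero hρ0 ((_root_.map_ne_zero _).2 hρ0)
  have hgen : ∀ x : F, σ₀ x = x → x ≠ 0 → ∃ k : ℕ, x = τ ^ k := by
    intro x hx hx0
    obtain ⟨y, hy⟩ := hσ.exists_norm x hx0 hx
    have hy0 : y ≠ 0 := by
      rintro rfl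
      rw [zero_mul] at hy
      exact hx0 hy.symm
    have h1 : Units.mk0 y hy0 ∈ Subgroup.zpowers g₀ := hg₀ _
    rw [← mem_powers_iff_mem_zpowers] at h1
    obtain ⟨k, hk⟩ := h1
    have h2 : ρ ^ k = y := by
      have := congrArg (fun u : Fˣ => (u : F)) hk
      simpa using this
    refine ⟨k, ?_⟩
    rw [← hy, hτ, mul_pow, ← h2, map_pow]
  -- the choice of the norm one element
  set w₀ := π * ρ * b / (β * β) with hw₀
  have hw₀0 : w₀ ≠ 0 := by
    rw [hw₀]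
    exact div_ne_zero (mul_ne_zero (mul_ne_zero hπ hρ0) hb) (mul_ne_zero hβ hβ)
  have hw₀e : w₀ * (β * β) = π * ρ * b := by
    rw [hw₀]
    field_simp
  set M := w₀ * σ₀ w₀ with hM
  set κ := β * σ₀ w₀ with hκ
  have hκ0 : κ ≠ 0 := mul_ne_zero hβ ((_root_.map_ne_zero _).2 hw₀0)
  set C := -(M * (β + σ₀ β)) with hC
  have hsel : ∃ ν : F, ν * σ₀ ν = 1 ∧ κ * σ₀ ν + σ₀ (κ * σ₀ ν) ≠ C := by
    by_contra hcon
    push Not at hcon
    have a1 := hcon 1 (by simp)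
    have a2 := hcon (σ₀ γ) (by rw [hm, mul_comm]; exact hγ)
    have a3 := hcon (σ₀ (γ * γ)) (by
      rw [hm, map_mul]
      linear_combination (γ * σ₀ γ + 1) * hγ)
    rw [map_one, mul_one] at a1
    rw [hm] at a2 a3
    exact hαsq (tr_sel hσ hκ0 hγ a1 a2 a3)
  obtain ⟨ν, hν, hνtr⟩ := hsel
  have hν0 : ν ≠ 0 := by
    rintro rfl
    rw [zero_mul] at hν
    exact zero_ne_one hν
  have hsν0 : σ₀ ν ≠ 0 := (_root_.map_ne_zero _).2 hν0
  set μ := ρ * ν with hμ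
  have hμ0 : μ ≠ 0 := mul_ne_zero hρ0 hν0
  have hμτ : μ * σ₀ μ = τ := by
    rw [hμ, map_mul, hτ]
    linear_combination ρ * σ₀ ρ * hν
  have hsβ : σ₀ β ≠ 0 := (_root_.map_ne_zero _).2 hβ
  set l := -(τ * β) / σ₀ β with hl
  have hl0 : l ≠ 0 := div_ne_zero (neg_ne_zero.2 (mul_ne_zero hτ0 hβ)) hsβ
  have hlσ : l * σ₀ β = -τ * β := by
    rw [hl]
    field_simp
  have hlτ : l * σ₀ l = τ * τ := by
    have h1 : σ₀ l * β = -τ * σ₀ β := by
      have := congrArg σ₀ hlσ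
      simp only [map_mul, map_neg, hm, hsτ] at this
      exact this
    have key : (l * σ₀ l) * (β * σ₀ β) = (τ * τ) * (β * σ₀ β) := by
      linear_combination (σ₀ l * β) * hlσ + (-τ * β) * h1
    exact mul_right_cancel₀ (mul_ne_zero hβ hsβ) key
  set c := β / b with hc
  have hc0 : c ≠ 0 := div_ne_zero hβ hb
  have hcb : c * b = β := by
    rw [hc]
    field_simp
  set w := w₀ * ν with hw
  set ξ := 1 + w with hξ
  have hP : Par σ₀ β π b μ l c ξ := by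
    refine ⟨hμ0, hl0, hcb, ?_, ?_, hβ⟩
    · rw [hμτ, hlσ]
    · rw [hξ, hw, hμ]
      linear_combination ν * hw₀e
  have hsξ : 1 - σ₀ ξ = - (σ₀ w₀ * σ₀ ν) := by
    rw [hξ, hw, map_add, map_one, map_mul]
    ring
  set Θ := β * ξ * (1 - σ₀ ξ) with hΘ
  have hΘe : Θ = -(κ * σ₀ ν) - β * M := by
    rw [hΘ, hsξ, hξ, hw, hκ, hM]
    linear_combination (-(β * w₀ * σ₀ w₀)) * hν
  have hsM : σ₀ M = M := by
    rw [hM, map_mul, hm, mul_comm]
  have hΘtr : Θ + σ₀ Θ ≠ 0 := by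
    rw [hΘe]
    simp only [map_sub, map_neg, map_mul, hsM]
    intro h0
    apply hνtr
    simp only [map_mul]
    rw [hC]
    linear_combination -h0
  have hξ0 : ξ ≠ 0 := by
    intro h0
    apply hΘtr
    rw [hΘ, h0, mul_zero, zero_mul, map_zero, add_zero]
  refine ⟨μ, l, c, ξ, τ, hP, hlτ, hgen, ?_, hξ0, hc0⟩
  have e1 : c * σ₀ c * Θ + σ₀ (c * σ₀ c * Θ) = (c * σ₀ c) * (Θ + σ₀ Θ) := by
    simp only [map_mul, hm]
    ring
  rw [e1]
  exact mul_ne_zero (mul_ne_zero hc0 ((_root_.map_ne_zero _).2 hc0)) hΘtr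

variable {n : ℕ} {ℓ : Al F n →ₗ[F] F} {β π b : F}
variable (D : Des (frobHom hF) ℓ β π b) (hodd : Odd n) (hn : 5 ≤ n)

include D hodd hn

/-- The case `q ≥ 3`. -/
theorem main_big (hq : 3 ≤ q) (hβ : β ≠ 0) (hπ : π ≠ 0) :
    ∃ g ∈ suGroup (hA σ₀ ℓ), ∃ w ∈ suGroup (hA σ₀ ℓ), KK F n g w = suGroup (hA σ₀ ℓ) := by
  have hσ := invol_frob hF
  have hm : ∀ x, σ₀ (σ₀ x) = x := hσ.invol
  have S := hform D hσ hodd.pos
  obtain ⟨μ, l, c, ξ, τ, P, hlτ, hgen, htr, hξ0, hc0⟩ := exists_params hF hβ hπ D.hb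
  obtain ⟨g, hg, w, hw, hK, He, Hp, Hf, Hz, -⟩ := core hF D hodd hn P hlτ hgen
  have hu : UL F n ∈ KK F n g w := Subgroup.subset_closure (by simp)
  obtain ⟨t0, t1, t2, t3, t4, t5, t6, t7, t8, t9⟩ := tgt_table D hσ hodd (by omega) P
  have hUL := UL_iso (σ := σ₀) D
  have hue : UL F n (EE F n) = EE F n := by rw [UL_apply, uu_mul_EE hodd.pos]
  have hfe : hA σ₀ ℓ (fV F n c ξ) (EE F n) = β := by
    rw [S.conj (EE F n) (fV F n c ξ), t3, hm]
  have hze : hA σ₀ ℓ (zV F n c ξ) (EE F n) = hA σ₀ ℓ (fV F n c ξ) (EE F n) := by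
    rw [← UL_fV]
    conv_lhs => rw [← hue]
    exact hUL _ _
  have hzz : hA σ₀ ℓ (zV F n c ξ) (zV F n c ξ) = 0 := by
    rw [← UL_fV, hUL, t9]
  have hpe : hA σ₀ ℓ (pV F n μ) (EE F n) = 0 := S.zero_symm t1
  have hzf := h_zf (c := c) (ξ := ξ) D hσ hodd
  have hpz := h_pz (μ := μ) (c := c) (ξ := ξ) D hσ hodd
  have hfix : ∀ y : F, σ₀ y = y → ∃ t, σ₀ t = t ∧ t ≠ 0 ∧ t ≠ y := by
    intro y hy
    obtain ⟨s, hs, hs0, hs1⟩ := exists_fixed_ne_one hF hq
    by_cases hy0 : y = 0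
    · exact ⟨1, map_one _, one_ne_zero, by rw [hy0]; exact one_ne_zero⟩
    · refine ⟨y * s, by rw [map_mul, hy, hs], mul_ne_zero hy0 hs0, ?_⟩
      intro h0
      apply hs1
      exact mul_left_cancel₀ hy0 (by rw [h0, mul_one])
  refine ⟨g, hg, w, hw, le_antisymm hK (close_of_pp hF D hodd hn hK hu P He Hf fun y => ?_)⟩
  have e : y • NN F n = (y * μ⁻¹) • pV F n μ := by
    rw [pV, smul_smul, mul_assoc, inv_mul_cancel₀ P.hμ, mul_one]
  rw [e]
  refine pp_big' S hσ (hK.trans inf_le_left) t0 t9 hzz t4 hpe t6 (by rw [hfe]; exact P.hβ) hze ?_ ?_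
    He Hf Hz Hp hfix (y * μ⁻¹)
  · rw [hzf]
    exact htr
  · rw [hpz]
    refine neg_ne_zero.2 (mul_ne_zero (mul_ne_zero (mul_ne_zero P.hμ ?_) ?_) ?_)
    · exact (_root_.map_ne_zero _).2 hc0
    · exact (_root_.map_ne_zero _).2 hξ0
    · exact (_root_.map_ne_zero _).2 P.hβ

/-- The case `q = 2`. -/
theorem main_two (hq : q = 2) (hβ : β + σ₀ β ≠ 0) (hπ : π ≠ 0) :
    ∃ g ∈ suGroup (hA σ₀ ℓ), ∃ w ∈ suGroup (hA σ₀ ℓ), KK F n g w = suGroup (hA σ₀ ℓ) := by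
  have hσ := invol_frob hF
  have hm : ∀ x, σ₀ (σ₀ x) = x := hσ.invol
  have S := hform D hσ hodd.pos
  have hsq : ∀ x : F, σ₀ x = x * x := by
    intro x
    rw [frobHom_apply, hq, pow_two]
  have h2 : (2 : F) = 0 := by
    have h1 : σ₀ (1 + 1) = 1 + 1 := by rw [map_add, map_one]
    rw [hsq] at h1
    linear_combination h1
  have hp4 : ∀ y : F, y * y * (y * y) = y := by
    intro y
    have := hm y
    rw [hsq, hsq] at this
    exact this
  set ω := β with hωdef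
  have hω0 : ω ≠ 0 := by
    rintro h0
    apply hβ
    rw [h0, map_zero, add_zero]
  have hω : ω * ω = ω + 1 := by
    have k1 : (ω * ω + ω) * (ω * ω + ω + 1) = 0 := by
      linear_combination hp4 ω + (ω * ω * ω + ω * ω + ω) * h2
    rcases mul_eq_zero.1 k1 with k | k
    · exfalso
      apply hβ
      rw [hsq]
      linear_combination k
    · linear_combination k - h2 - ω * h2
  have hsω : σ₀ ω = ω + 1 := by rw [hsq, hω]
  have hall : ∀ y : F, y = 0 ∨ y = 1 ∨ y = ω ∨ y = ω + 1 := by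
    intro y
    have k : y * (y + 1) * (y + ω) * (y + ω + 1) = 0 := by
      linear_combination (y ^ 2 + y) * hω + hp4 y + (y + y ^ 3 + y ^ 2 + ω * (1 + y) * (y ^ 2 + y)) * h2
    simp only [mul_eq_zero] at k
    rcases k with ((k | k) | k) | k
    · exact Or.inl k
    · exact Or.inr (Or.inl (by linear_combination k - h2))
    · exact Or.inr (Or.inr (Or.inl (by linear_combination k - ω * h2)))
    · exact Or.inr (Or.inr (Or.inr (by linear_combination k - ω * h2 - h2)))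
  have hcube : ∀ x : F, x ≠ 0 → x * σ₀ x = 1 := by
    intro x hx
    rw [hsq]
    apply mul_left_cancel₀ hx
    linear_combination hp4 x
  have hfixed : ∀ x : F, σ₀ x = x → x ≠ 0 → x = 1 := by
    intro x hx hx0
    rw [hsq] at hx
    apply mul_left_cancel₀ hx0
    rw [hx, mul_one]
  have sbb : σ₀ b = b := sb D hodd.pos hodd
  have hb1 : b = 1 := hfixed b sbb D.hb
  have hπi : π⁻¹ ≠ 0 := inv_ne_zero hπ
  have hωi : ω * (ω + 1) = 1 := by linear_combination hω + h2 * ω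
  have hP : Par σ₀ β π b π⁻¹ (ω + 1) ω (ω + 1) := by
    refine ⟨hπi, ?_, by rw [hb1, mul_one], ?_, ?_, hω0⟩
    · intro h0
      rw [h0, mul_zero] at hωi
      exact zero_ne_one hωi
    · rw [← hωdef, hsω, hcube _ hπi]
      linear_combination hω + (2 * ω + 1) * h2
    · rw [← hωdef, hb1, mul_one, mul_inv_cancel₀ hπ]
      linear_combination ω * hω + hω + ω * h2
  have hlτ : (ω + 1) * σ₀ (ω + 1) = (1 : F) * 1 := by
    rw [map_add, map_one, hsω]
    linear_combination hωi + (ω + 1) * h2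
  have hgen : ∀ x : F, σ₀ x = x → x ≠ 0 → ∃ k : ℕ, x = (1 : F) ^ k := by
    intro x hx hx0
    exact ⟨0, by rw [pow_zero]; exact hfixed x hx hx0⟩
  obtain ⟨g, hg, w, hw, hK, He, Hp, Hf, Hz, -⟩ := core hF D hodd hn hP hlτ hgen
  have hu : UL F n ∈ KK F n g w := Subgroup.subset_closure (by simp)
  have hK' : KK F n g w ≤ uGroup (hA σ₀ ℓ) := hK.trans inf_le_left
  refine ⟨g, hg, w, hw, le_antisymm hK (close_of_pp hF D hodd hn hK hu hP He Hf fun y => ?_)⟩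
  obtain ⟨t0, t1, t2, t3, t4, t5, t6, t7, t8, t9⟩ := tgt_table D hσ hodd (by omega) hP
  have hUL := UL_iso (σ := σ₀) D
  have hue : UL F n (EE F n) = EE F n := by rw [UL_apply, uu_mul_EE hodd.pos]
  have hE := tauE (F := F) (σ := σ₀) hodd
  have s1 : σ₀ (ω + 1) = ω := by
    rw [map_add, map_one, hsω]
    linear_combination h2
  have hzf' : hA σ₀ ℓ (zV F n ω (ω + 1)) (fV F n ω (ω + 1)) = ω + 1 := by
    rw [h_zf D hσ hodd, s1, hsω]
    rw [hωi]
    linear_combination -ω * h2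
  have hzN : hA σ₀ ℓ (zV F n ω (ω + 1)) (NN F n) = ω := by
    simp only [zV, S.add_left, S.smul_left, t1N D, tNN D, tMN D, ← hωdef]
    rw [hωi]
    linear_combination -ω * h2
  have hEz : hA σ₀ ℓ (EE F n) (zV F n ω (ω + 1)) = ω + 1 := by
    rw [← UL_fV]
    conv_lhs => rw [← hue]
    rw [hUL, t3, hsω]
  have Gr : Two.Gram4 σ₀ (hA σ₀ ℓ) ω (EE F n) (fV F n ω (ω + 1)) (zV F n ω (ω + 1)) (NN F n) := by
    refine ⟨t0, by rw [t3, hsω], hEz, tEN D hodd.pos hE, ?_, t9, ?_, ?_, ?_, hzf', ?_, hzN, tNE D hodd, ?_, ?_, tNN D⟩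
    · rw [S.conj (EE F n) (fV F n ω (ω + 1)), t3, hm]
    · rw [S.conj (zV F n ω (ω + 1)) (fV F n ω (ω + 1)), hzf', s1]
    · simp only [fV, S.add_left, S.smul_left, t1N D, tNN D, mul_zero, add_zero]
    · rw [S.conj (EE F n) (zV F n ω (ω + 1)), hEz, s1]
    · rw [← UL_fV, hUL, t9]
    · simp only [fV, S.add_right, S.smul_right, tN1 D, tNN D, mul_zero, add_zero]
    · rw [S.conj (zV F n ω (ω + 1)) (NN F n), hzN, hsω]
  have HN : ZZ σ₀ (hA σ₀ ℓ) (KK F n g w) (NN F n) := by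
    have := ZZ.smul' S hσ hπ Hp
    rwa [pV, smul_smul, mul_inv_cancel₀ hπ, one_smul] at this
  have HM : ZZ σ₀ (hA σ₀ ℓ) (KK F n g w) (zV F n ω (ω + 1) + fV F n ω (ω + 1) + (ω + 1) • NN F n) := by
    have := ZZ.conj' hK' hu HN
    rw [UL_NN] at this
    have e1 : zV F n ω (ω + 1) + fV F n ω (ω + 1) + (ω + 1) • NN F n =
        (ω + ω) • (1 : Al F n) + (ω + ω * (ω + 1) + (ω + 1)) • NN F n + (ω * (ω + 1)) • MM F n := by
      rw [zV, fV]
      module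
    have a1 : ω + ω = 0 := by linear_combination ω * h2
    have a2 : ω + ω * (ω + 1) + (ω + 1) = 0 := by
      rw [hωi]
      linear_combination ω * h2 + h2 - ω * h2 - h2 + ω * h2 + h2
    rw [e1, a1, a2, hωi, zero_smul, zero_smul, one_smul, zero_add, zero_add]
    exact this
  exact Two.pp_two S hσ hK' h2 hω hsω hall Gr He Hf Hz HN HM y

/-- The model statement. -/
theorem main_model (hβ : β + σ₀ β ≠ 0) (hπ : π ≠ 0) :
    ∃ g ∈ suGroup (hA σ₀ ℓ), ∃ w ∈ suGroup (hA σ₀ ℓ), KK F n g w = suGroup (hA σ₀ ℓ) := by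
  have hq2 := two_le hF
  rcases (by omega : q = 2 ∨ 3 ≤ q) with h | h
  · exact main_two hF D hodd hn h hβ hπ
  · refine main_big hF D hodd hn h ?_ hπ
    rintro h0
    apply hβ
    rw [h0, map_zero, add_zero]

end Cfsg.Agent.Lib.SUReg.Sel
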