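/-
Transport from the model to the standard Hermitian form.
-/
import Mathlib
import Cfsg.Agent.Lib.SUReg.Sel
import Cfsg.Agent.Lib.Witt.HermModel

set_option autoImplicit false
set_option linter.unusedSimpArgs false
set_option linter.unusedSectionVars false
set_option linter.style.haveILetI false
set_option linter.unusedVariables false

namespace Cfsg.Agent.Lib.SUReg.Final

open Module Polynomial Cfsg.Agent.Lib.Classical.HermBasic Cfsg.Agent.Lib.Classical.HermElem
open Cfsg.Agent.Lib.Classical.HermGen Cfsg.Agent.Lib.SUReg.Alg Cfsg.Agent.Lib.SUReg.Form Cfsg.Agent.Lib.SUReg.Pin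
open Cfsg.Agent.Lib.HermCount.Field Cfsg.Agent.Lib.Classical.HermBridge Cfsg.Agent.Lib.SUReg.Core
open Cfsg.Agent.Lib.SUReg.Sel

universe u

section cj

variable {F : Type u} [Field F] {V W : Type u} [AddCommGroup V] [Module F V] [AddCommGroup W] [Module F W]

/-- Conjugation by a linear equivalence, as a group homomorphism. -/
noncomputable def cj (ψ : V ≃ₗ[F] W) : (W ≃ₗ[F] W) →* (V ≃ₗ[F] V) where
  toFun t := ψ ≪≫ₗ t ≪≫ₗ ψ.symm
  map_one' := by
    ext x
    simp
  map_mul' a b := by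
    ext x
    simp

theorem cj_apply (ψ : V ≃ₗ[F] W) (t : W ≃ₗ[F] W) (x : V) : cj ψ t x = ψ.symm (t (ψ x)) := rfl

variable [FiniteDimensional F V] [FiniteDimensional F W] {h : V → V → F} {h' : W → W → F}

theorem cj_su (ψ : V ≃ₗ[F] W) (he : ∀ x y, h' (ψ x) (ψ y) = h x y) {t : W ≃ₗ[F] W} (ht : t ∈ suGroup h') :
    cj ψ t ∈ suGroup h := by
  obtain ⟨h1, h2⟩ := mem_suGroup.1 ht
  rw [mem_suGroup]
  refine ⟨fun x y => ?_, ?_⟩
  · rw [← he (cj ψ t x), cj_apply, cj_apply, LinearEquiv.apply_symm_apply, LinearEquiv.apply_symm_apply, h1, he]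
  · have := LinearMap.det_conj (t : W →ₗ[F] W) ψ.symm
    rw [h2] at this
    exact this

theorem cj_su_surj (ψ : V ≃ₗ[F] W) (he : ∀ x y, h' (ψ x) (ψ y) = h x y) {t : V ≃ₗ[F] V} (ht : t ∈ suGroup h) :
    ∃ t' ∈ suGroup h', cj ψ t' = t := by
  obtain ⟨h1, h2⟩ := mem_suGroup.1 ht
  refine ⟨ψ.symm ≪≫ₗ t ≪≫ₗ ψ, ?_, ?_⟩
  · rw [mem_suGroup]
    refine ⟨fun x y => ?_, ?_⟩
    · show h' (ψ (t (ψ.symm x))) (ψ (t (ψ.symm y))) = h' x y
      rw [he, h1, ← he, LinearEquiv.apply_symm_apply, LinearEquiv.apply_symm_apply]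
    · have := LinearMap.det_conj (t : V →ₗ[F] V) ψ
      rw [h2] at this
      exact this
  · ext x
    simp [cj_apply]

end cj

variable {F : Type u} [Field F] [Fintype F] {q : ℕ} (hF : Fintype.card F = q ^ 2) {n : ℕ}

local notation "σ₀" => frobHom hF

include hF

/-- The case of dimension at least five. -/
theorem su_big (hn : 5 ≤ n) (hodd : Odd n) :
    ∃ u g h : ↥(Cfsg.SU n F q),
      (IsNilpotent (((u : Matrix.SpecialLinearGroup (Fin n) F) : Matrix (Fin n) (Fin n) F) - 1) ∧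
        (((u : Matrix.SpecialLinearGroup (Fin n) F) : Matrix (Fin n) (Fin n) F) - 1) ^ (n - 1) ≠ 0) ∧
      Subgroup.closure ({u, g * u * g⁻¹, h * u * h⁻¹} : Set ↥(Cfsg.SU n F q)) = ⊤ := by
  classical
  have hσ := invol_frob hF
  obtain ⟨m, hm⟩ := hodd
  obtain ⟨ℓ, β, π, b, D, hβ, hπ⟩ := Ell.exists_des (n := n) hσ (m := m) (by omega) hm
  have hodd : Odd n := ⟨m, hm⟩
  obtain ⟨g, hg, w, hw, hK⟩ := main_model hF D hodd hn hβ hπ
  have S := hform D hσ hodd.pos
  haveI : Finite (Al F n) := Module.finite_of_finite F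
  have HS : Cfsg.Agent.Lib.HermCount.Space.HSpace q (hA σ₀ ℓ) :=
    ⟨S.add_left, S.smul_left, S.conj, S.nd⟩
  obtain ⟨ψ, hψ⟩ := Cfsg.Agent.Lib.Witt.HermModel.exists_model HS hF n finrank_Al
  have huS : UL F n ∈ suGroup (hA σ₀ ℓ) := by
    rw [mem_suGroup]
    exact ⟨UL_iso D, det_UL (by omega)⟩
  set C := cj ψ with hC
  have cS : ∀ t ∈ suGroup (hA σ₀ ℓ), C t ∈ suGroup (Cfsg.hermForm n F q) := fun t ht => cj_su ψ hψ ht
  have hmap : Subgroup.closure {C (UL F n), C g * C (UL F n) * (C g)⁻¹, C w * C (UL F n) * (C w)⁻¹} =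
      suGroup (Cfsg.hermForm n F q) := by
    have h1 := congrArg (Subgroup.map C) hK
    rw [KK, MonoidHom.map_closure] at h1
    have h2 : C '' {UL F n, g * UL F n * g⁻¹, w * UL F n * w⁻¹} =
        {C (UL F n), C g * C (UL F n) * (C g)⁻¹, C w * C (UL F n) * (C w)⁻¹} := by
      simp only [Set.image_insert_eq, Set.image_singleton, map_mul, map_inv]
    rw [h2] at h1
    rw [h1]
    apply le_antisymm
    · rw [Subgroup.map_le_iff_le_comap]
      exact fun t ht => cS t ht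
    · intro t ht
      obtain ⟨t', ht', e⟩ := cj_su_surj (h := Cfsg.hermForm n F q) ψ hψ ht
      exact ⟨t', ht', e⟩
  set E := suEquiv (F := F) n q with hE
  let U₀ : suGroup (Cfsg.hermForm n F q) := ⟨C (UL F n), cS _ huS⟩
  let G₀ : suGroup (Cfsg.hermForm n F q) := ⟨C g, cS _ hg⟩
  let W₀ : suGroup (Cfsg.hermForm n F q) := ⟨C w, cS _ hw⟩
  have hN : ∀ x : Fin n → F, (((E.symm U₀).1.1 : Matrix (Fin n) (Fin n) F) - 1).mulVec x = ψ.symm (NN F n * ψ x) := by
    intro x
    have h1 : (E (E.symm U₀)).1 x = ((E.symm U₀).1.1 : Matrix (Fin n) (Fin n) F).mulVec x := suEquiv_apply n q _ x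
    rw [MulEquiv.apply_symm_apply] at h1
    rw [Matrix.sub_mulVec, ← h1, Matrix.one_mulVec]
    have h2 : U₀.1 x = ψ.symm (uu F n * ψ x) := rfl
    rw [h2, NN, sub_mul, one_mul, map_sub, LinearEquiv.symm_apply_apply]
  have hNk : ∀ (k : ℕ) (x : Fin n → F),
      ((((E.symm U₀).1.1 : Matrix (Fin n) (Fin n) F) - 1) ^ k).mulVec x = ψ.symm (NN F n ^ k * ψ x) := by
    intro k
    induction k with
    | zero =>
      intro x
      simp
    | succ k ih =>
      intro x
      rw [pow_succ, ← Matrix.mulVec_mulVec, hN, ih, LinearEquiv.apply_symm_apply, pow_succ, mul_assoc]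
  refine ⟨E.symm U₀, E.symm G₀, E.symm W₀, ⟨⟨n, ?_⟩, ?_⟩, ?_⟩
  · apply Matrix.mulVec_injective
    funext x
    rw [hNk, NN_pow_eq, zero_mul, map_zero, Matrix.zero_mulVec]
  · intro h0
    have h1 := hNk (n - 1) (ψ.symm 1)
    rw [h0, Matrix.zero_mulVec, LinearEquiv.apply_symm_apply, mul_one] at h1
    have h2 : NN F n ^ (n - 1) = 0 := by
      have := congrArg ψ h1
      rw [map_zero, LinearEquiv.apply_symm_apply] at this
      exact this.symm
    exact EE_ne (F := F) (by omega) h2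
  · have h1 : Subgroup.closure ({U₀, G₀ * U₀ * G₀⁻¹, W₀ * U₀ * W₀⁻¹} : Set (suGroup (Cfsg.hermForm n F q))) = ⊤ := by
      apply Subgroup.map_injective (suGroup (Cfsg.hermForm n F q)).subtype_injective
      rw [MonoidHom.map_closure]
      have e1 : (suGroup (Cfsg.hermForm n F q)).subtype '' {U₀, G₀ * U₀ * G₀⁻¹, W₀ * U₀ * W₀⁻¹} =
          {C (UL F n), C g * C (UL F n) * (C g)⁻¹, C w * C (UL F n) * (C w)⁻¹} := by
        simp only [Set.image_insert_eq, Set.image_singleton, map_mul, map_inv]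
        rfl
      rw [e1, hmap, ← MonoidHom.range_eq_map, Subgroup.range_subtype]
    have h2 := congrArg (Subgroup.map E.symm.toMonoidHom) h1
    rw [MonoidHom.map_closure, Subgroup.map_top_of_surjective _ E.symm.surjective] at h2
    simp only [Set.image_insert_eq, Set.image_singleton, map_mul, map_inv] at h2
    exact h2

end Cfsg.Agent.Lib.SUReg.Final
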